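import Cfsg.Agent.Components.Cores
import Cfsg.Agent.Subnormal.BaerSuzuki
import Cfsg.Agent.PCore.Basic
import Mathlib.GroupTheory.Sylow
import Mathlib.Combinatorics.Enumerative.DoubleCounting

/-! Counting the subnormalizer of a `p`-subgroup along a series with `p`- and `p'`-factors. -/

set_option autoImplicit false

namespace CfsgLib.Subnormalizer

open Subgroup

variable {G : Type*} [Group G]

/-- `g` normalizes some subgroup over `M` and `H` which is a `p`-group modulo `M`. -/
def Cond (p : ℕ) (M H : Subgroup G) (g : G) : Prop :=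
  ∃ W : Subgroup G, M ≤ W ∧ H ≤ W ∧ g ∈ normalizer (W : Set G) ∧ ∃ k : ℕ, M.relIndex W = p ^ k

/-- The closure of `H` under conjugation by powers of `a`. -/
def T (H : Subgroup G) (a : G) : Subgroup G :=
  ⨆ i : ℤ, H.map (MulAut.conj (a ^ i)).toMonoidHom

theorem le_T (H : Subgroup G) (a : G) : H ≤ T H a := by
  refine le_trans ?_ (le_iSup _ (0 : ℤ))
  intro x hx
  exact ⟨x, hx, by simp⟩

theorem T_le {H V : Subgroup G} {a : G} (hH : H ≤ V) (ha : a ∈ normalizer (V : Set G)) :
    T H a ≤ V := by
  refine iSup_le fun i => ?_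
  rintro _ ⟨x, hx, rfl⟩
  exact (mem_normalizer_iff.1 (zpow_mem ha i) x).1 (hH hx)

theorem mem_normalizer_T [Finite G] (H : Subgroup G) (a : G) : a ∈ normalizer (T H a : Set G) := by
  have hle : ∀ x ∈ T H a, a * x * a⁻¹ ∈ T H a := by
    intro x hx
    have : (T H a).map (MulAut.conj a).toMonoidHom ≤ T H a := by
      rw [T, Subgroup.map_iSup]
      refine iSup_le fun i => le_trans ?_ (le_iSup _ (i + 1))
      rintro _ ⟨_, ⟨x, hx, rfl⟩, rfl⟩
      refine ⟨x, hx, ?_⟩
      show a ^ (i + 1) * x * (a ^ (i + 1))⁻¹ = a * (a ^ i * x * (a ^ i)⁻¹) * a⁻¹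
      rw [add_comm, zpow_one_add]
      group
    exact this ⟨x, hx, rfl⟩
  exact mem_normalizer_fintype hle

theorem conj_mem_normalizer {V : Subgroup G} {a c : G} (ha : a ∈ normalizer (V : Set G)) :
    c * a * c⁻¹ ∈ normalizer ((V.map (MulAut.conj c).toMonoidHom : Subgroup G) : Set G) := by
  have h := le_normalizer_map (MulAut.conj c).toMonoidHom (mem_map_of_mem _ ha)
  simpa using h

variable {p : ℕ} [hp : Fact p.Prime]

theorem exists_relIndex_pow_of_dvd {a k : ℕ} (h : a ∣ p ^ k) : ∃ m : ℕ, a = p ^ m := by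
  obtain ⟨m, -, hm⟩ := (Nat.dvd_prime_pow hp.out).1 h
  exact ⟨m, hm⟩

theorem cond_bot_iff [Finite G] {H : Subgroup G} {g : G} :
    Cond p ⊥ H g ↔ ∃ W : Subgroup G, H ≤ W ∧ g ∈ normalizer (W : Set G) ∧ IsPGroup p W := by
  simp only [Cond, bot_le, true_and, relIndex_bot_left]
  exact exists_congr fun W => and_congr_right fun _ => and_congr_right fun _ => IsPGroup.iff_card.symm

/-- `H` is subnormal in `⟨H, g⟩` iff `g` normalizes a `p`-group containing `H`. -/
theorem isSubnormal_iff [Finite G] {H : Subgroup G} (hH : IsPGroup p H) {g : G} :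
    (H.subgroupOf (H ⊔ zpowers g)).IsSubnormal ↔ Cond p ⊥ H g := by
  rw [cond_bot_iff]
  set L := H ⊔ zpowers g with hL
  constructor
  · intro h
    have h1 := Components.subnormal_le_pCore h hH.comap_subtype
    refine ⟨(Cfsg.pCore p L).map L.subtype, fun x hx =>
      ⟨⟨x, (le_sup_left : H ≤ L) hx⟩, h1 hx, rfl⟩, ?_, (PCore.isPGroup_pCore p L).map _⟩
    haveI := PCore.pCore_characteristic p L
    have h2 := le_normalizer_map L.subtype (H := Cfsg.pCore p L)
    rw [normalizer_eq_top] at h2
    exact h2 ⟨⟨g, mem_sup_right (mem_zpowers g)⟩, trivial, rfl⟩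
  · rintro ⟨W, hHW, hg, hW⟩
    have hLN : L ≤ normalizer (W : Set G) :=
      sup_le (hHW.trans le_normalizer) (zpowers_le.2 hg)
    set W' := W.subgroupOf L
    have hn : W'.Normal := normal_subgroupOf_of_le_normalizer hLN
    have hle : H.subgroupOf L ≤ W' := fun x hx => hHW hx
    haveI : Group.IsNilpotent W' := (hW.comap_subtype : IsPGroup p W').isNilpotent
    exact (Subnormal.isSubnormal_of_nilpotent _).trans hle hn.isSubnormal

/-- Passing from `M` to a larger normal subgroup with index a power of `p`. -/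
theorem cond_iff_of_pow [Finite G] {M M' H : Subgroup G} [M'.Normal] (h : M ≤ M') {m : ℕ}
    (hm : M.relIndex M' = p ^ m) {g : G} : Cond p M H g ↔ Cond p M' H g := by
  constructor
  · rintro ⟨W, hMW, hHW, hg, k, hk⟩
    refine ⟨W ⊔ M', le_sup_right, hHW.trans le_sup_left, ?_, ?_⟩
    · rw [mem_normalizer_iff'']
      intro x
      rw [← SetLike.mem_coe, ← SetLike.mem_coe, mul_normal]
      constructor
      · rintro ⟨w, hw, n, hn, rfl⟩
        exact ⟨g⁻¹ * w * g, (mem_normalizer_iff''.1 hg w).1 hw, g⁻¹ * n * g,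
          by simpa using Normal.conj_mem ‹M'.Normal› n hn g⁻¹, by group⟩
      · rintro ⟨w, hw, n, hn, he⟩
        refine ⟨g * w * g⁻¹, (mem_normalizer_iff.1 hg w).1 hw, g * n * g⁻¹,
          Normal.conj_mem ‹M'.Normal› n hn g, ?_⟩
        have : x = g * (w * n) * g⁻¹ := by
          have he' : w * n = g⁻¹ * x * g := he
          rw [he']; group
        rw [this]; group
    · refine exists_relIndex_pow_of_dvd (k := k) ?_
      rw [relIndex_sup_right, ← hk]
      exact relIndex_dvd_of_le_left W h
  · rintro ⟨W, hMW, hHW, hg, k, hk⟩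
    refine ⟨W, h.trans hMW, hHW, hg, m + k, ?_⟩
    rw [← relIndex_mul_relIndex M M' W h hMW, hm, hk, pow_add]

/-- The condition modulo `M`, in the quotient. -/
theorem cond_map_iff [Finite G] {M M' H : Subgroup G} [M.Normal] (h : M ≤ M') {g : G} :
    Cond p (M'.map (QuotientGroup.mk' M)) (H.map (QuotientGroup.mk' M)) (QuotientGroup.mk' M g) ↔
      Cond p M' H g := by
  set f := QuotientGroup.mk' M with hf
  have hfs : Function.Surjective f := QuotientGroup.mk'_surjective M
  have hker : f.ker = M := QuotientGroup.ker_mk' M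
  have hrel : ∀ W : Subgroup G, M ≤ W → (M'.map f).relIndex (W.map f) = M'.relIndex W := by
    intro W hW
    have := relIndex_comap (M'.map f) f W
    rw [comap_map_eq_self (by rw [hker]; exact h)] at this
    exact this.symm
  constructor
  · rintro ⟨V, hMV, hHV, hg, k, hk⟩
    have hMW : M ≤ V.comap f := fun x hx => by
      rw [mem_comap, hf, QuotientGroup.mk'_apply, (QuotientGroup.eq_one_iff x).2 hx]
      exact one_mem V
    refine ⟨V.comap f, map_le_iff_le_comap.1 hMV, map_le_iff_le_comap.1 hHV,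
      le_normalizer_comap f hg, k, ?_⟩
    rw [← hk, ← hrel _ hMW, map_comap_eq_self_of_surjective hfs]
  · rintro ⟨W, hMW, hHW, hg, k, hk⟩
    exact ⟨W.map f, map_mono hMW, map_mono hHW, le_normalizer_map f (mem_map_of_mem f hg), k,
      (hrel W (h.trans hMW)).trans hk⟩

theorem T_map {G' : Type*} [Group G'] (f : G →* G') (H : Subgroup G) (a : G) :
    (T H a).map f = T (H.map f) (f a) := by
  rw [T, T, Subgroup.map_iSup]
  refine iSup_congr fun i => ?_
  rw [map_map, map_map]
  congr 1
  ext x
  show f (a ^ i * x * (a ^ i)⁻¹) = f a ^ i * f x * (f a ^ i)⁻¹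
  simp

/-- The `p'`-step: each coset over the condition modulo `N` holds `|C_N(H)|` good elements. -/
theorem card_cond_step [Finite G] (N H : Subgroup G) [N.Normal] (hH : IsPGroup p H) (hN : (Nat.card N).Coprime p) :
    Nat.card {g : G // Cond p ⊥ H g} * Nat.card N =
      Nat.card {g : G // Cond p N H g} *
        Nat.card ↥(N ⊓ centralizer (H : Set G)) := by
  classical
  haveI := Fintype.ofFinite G
  rw [Nat.card_eq_fintype_card, Nat.card_eq_fintype_card (α := N),
    Nat.card_eq_fintype_card (α := {g : G // Cond p N H g}),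
    Nat.card_eq_fintype_card (α := ↥(N ⊓ centralizer (H : Set G))),
    Fintype.card_subtype, Fintype.card_subtype, Fintype.card_subtype, Fintype.card_subtype]
  set C := N ⊓ centralizer (H : Set G) with hC
  refine Finset.card_mul_eq_card_mul (fun a b : G => a⁻¹ * b ∈ N) ?_ ?_
  · intro a ha
    simp only [Finset.mem_filter, Finset.mem_univ, true_and] at ha
    refine Finset.card_bij (fun b _ => a⁻¹ * b) ?_ (fun _ _ _ _ h => mul_left_cancel h) ?_
    · intro b hb
      simp only [Finset.mem_bipartiteAbove, Finset.mem_filter, Finset.mem_univ, true_and] at hb ⊢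
      exact hb.2
    · intro n hn
      simp only [Finset.mem_filter, Finset.mem_univ, true_and] at hn
      refine ⟨a * n, ?_, by group⟩
      simp only [Finset.mem_bipartiteAbove, Finset.mem_filter, Finset.mem_univ, true_and]
      refine ⟨?_, by simpa using hn⟩
      obtain ⟨V, hHV, hav, hV⟩ := cond_bot_iff.1 ha
      refine ⟨V ⊔ N, le_sup_right, hHV.trans le_sup_left, ?_, ?_⟩
      · refine mul_mem ?_ (le_normalizer (mem_sup_right hn))
        rw [mem_normalizer_iff'']
        intro x
        rw [← SetLike.mem_coe, ← SetLike.mem_coe, mul_normal]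
        constructor
        · rintro ⟨w, hw, m, hm, rfl⟩
          exact ⟨a⁻¹ * w * a, (mem_normalizer_iff''.1 hav w).1 hw, a⁻¹ * m * a,
            by simpa using Normal.conj_mem ‹N.Normal› m hm a⁻¹, by group⟩
        · rintro ⟨w, hw, m, hm, he⟩
          refine ⟨a * w * a⁻¹, (mem_normalizer_iff.1 hav w).1 hw, a * m * a⁻¹,
            Normal.conj_mem ‹N.Normal› m hm a, ?_⟩
          have he' : w * m = a⁻¹ * x * a := he
          have : x = a * (w * m) * a⁻¹ := by rw [he']; group
          rw [this]; group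
      · obtain ⟨k, hk⟩ := IsPGroup.iff_card.1 hV
        refine exists_relIndex_pow_of_dvd (k := k) ?_
        rw [relIndex_sup_right, ← hk, ← relIndex_bot_left]
        exact relIndex_dvd_of_le_left V bot_le
  · intro b hb
    simp only [Finset.mem_filter, Finset.mem_univ, true_and] at hb
    obtain ⟨W, hNW, hHW, hbW, j, hj⟩ := hb
    set K := T H b ⊔ N with hK
    have hTW : T H b ≤ W := T_le hHW hbW
    have hKW : K ≤ W := sup_le hTW hNW
    obtain ⟨k, hk⟩ : ∃ k, N.relIndex K = p ^ k := by
      refine exists_relIndex_pow_of_dvd (k := j) ?_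
      rw [← hj, ← relIndex_mul_relIndex N K W le_sup_right hKW]
      exact Dvd.intro _ rfl
    have hKcard : Nat.card K = Nat.card N * p ^ k := by
      rw [← hk, ← relIndex_bot_left K, ← relIndex_bot_left N,
        relIndex_mul_relIndex _ _ _ bot_le le_sup_right]
    set A := (Finset.univ.filter fun a : G => Cond p ⊥ H a).bipartiteBelow
      (fun a b : G => a⁻¹ * b ∈ N) b with hA
    have hAmem : ∀ a, a ∈ A ↔ Cond p ⊥ H a ∧ a⁻¹ * b ∈ N := by
      intro a; simp [hA, Finset.mem_bipartiteBelow]
    -- the complement attached to a good element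
    have hT : ∀ a ∈ A, T H a ≤ K ∧ Nat.card (T H a) = p ^ k := by
      intro a ha
      obtain ⟨hac, hab⟩ := (hAmem a).1 ha
      obtain ⟨V, hHV, hav, hV⟩ := cond_bot_iff.1 hac
      have hTp : IsPGroup p (T H a) := hV.to_le (T_le hHV hav)
      have hfe : QuotientGroup.mk' N a = QuotientGroup.mk' N b := QuotientGroup.eq.2 hab
      have hsup : T H a ⊔ N = K := by
        rw [hK, ← QuotientGroup.ker_mk' N, ← comap_map_eq, ← comap_map_eq, T_map, T_map, hfe]
      refine ⟨hsup ▸ le_sup_left, ?_⟩
      have h1 : N.relIndex K = N.relIndex (T H a) := by rw [← hsup, relIndex_sup_right]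
      rw [← hk, h1, ← inf_relIndex_right,
        inf_comm, PCore.inf_eq_bot_of_isPGroup_of_coprime hTp hN, relIndex_bot_left]
    have hconj : ∀ V V' : Subgroup G, V ≤ K → V' ≤ K → Nat.card V = p ^ k → Nat.card V' = p ^ k →
        ∃ n ∈ N, V' = V.map (MulAut.conj n).toMonoidHom := by
      intro V V' hV hV' hc hc'
      have hfac : (Nat.card K).factorization p = k := by
        rw [hKcard, Nat.factorization_mul Nat.card_pos.ne' (pow_ne_zero _ hp.out.ne_zero),
          Finsupp.add_apply, hp.out.factorization_pow, Finsupp.single_eq_same,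
          Nat.factorization_eq_zero_of_not_dvd (hp.out.coprime_iff_not_dvd.1 hN.symm), zero_add]
      let P : Sylow p K := Sylow.ofCard (V.subgroupOf K)
        (by rw [Nat.card_congr (subgroupOfEquivOfLe hV).toEquiv, hc, hfac])
      let P' : Sylow p K := Sylow.ofCard (V'.subgroupOf K)
        (by rw [Nat.card_congr (subgroupOfEquivOfLe hV').toEquiv, hc', hfac])
      obtain ⟨g, hg⟩ := MulAction.exists_smul_eq K P P'
      have hVN : (g : G) ∈ V ⊔ N := by
        have : V ⊔ N = K := by
          refine eq_of_le_of_card_ge (sup_le hV le_sup_right) ?_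
          rw [hKcard, ← relIndex_bot_left (V ⊔ N),
            ← relIndex_mul_relIndex ⊥ N (V ⊔ N) bot_le le_sup_right, relIndex_bot_left,
            relIndex_sup_right, ← inf_relIndex_right, inf_comm,
            PCore.inf_eq_bot_of_isPGroup_of_coprime (IsPGroup.of_card hc) hN, relIndex_bot_left, hc]
        rw [this]; exact g.2
      rw [sup_comm, ← SetLike.mem_coe, normal_mul] at hVN
      obtain ⟨n, hn, v, hv, hnv⟩ := hVN
      refine ⟨n, hn, ?_⟩
      ext x
      have key : ∀ y : K, (g : G) * y * (g : G)⁻¹ ∈ V' ↔ (y : G) ∈ V := by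
        intro y
        have h1 : (g * y * g⁻¹ : K) ∈ (P' : Subgroup K) ↔ y ∈ (P : Subgroup K) := by
          rw [← hg, Sylow.coe_subgroup_smul, show g * y * g⁻¹ = MulAut.conj g • y from rfl]
          exact smul_mem_pointwise_smul_iff
        exact h1
      have hnv' : n * v = g := hnv
      constructor
      · intro hx
        refine ⟨n⁻¹ * x * n, ?_, by simp [mul_assoc]⟩
        have hy : n⁻¹ * x * n ∈ K :=
          mul_mem (mul_mem (inv_mem ((le_sup_right : N ≤ K) hn)) (hV' hx)) ((le_sup_right : N ≤ K) hn)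
        have hy2 : v⁻¹ * (n⁻¹ * x * n) * v ∈ K := mul_mem (mul_mem (inv_mem (hV hv)) hy) (hV hv)
        have := (key ⟨_, hy2⟩).1 (by
          show (g : G) * (v⁻¹ * (n⁻¹ * x * n) * v) * (g : G)⁻¹ ∈ V'
          rw [← hnv']; simpa [mul_assoc] using hx)
        have h2 := mul_mem (mul_mem hv this) (inv_mem hv)
        simpa [mul_assoc] using h2
      · rintro ⟨y, hy, rfl⟩
        have hy2 : v⁻¹ * y * v ∈ V := mul_mem (mul_mem (inv_mem hv) hy) hv
        have := (key ⟨_, hV hy2⟩).2 hy2
        rw [← hnv'] at this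
        simpa [mul_assoc] using this
    -- a base complement and a base element
    have hfac : (Nat.card K).factorization p = k := by
      rw [hKcard, Nat.factorization_mul Nat.card_pos.ne' (pow_ne_zero _ hp.out.ne_zero),
        Finsupp.add_apply, hp.out.factorization_pow, Finsupp.single_eq_same,
        Nat.factorization_eq_zero_of_not_dvd (hp.out.coprime_iff_not_dvd.1 hN.symm), zero_add]
    obtain ⟨W0, hHW0, hW0K, hW0c⟩ : ∃ W0 : Subgroup G, H ≤ W0 ∧ W0 ≤ K ∧ Nat.card W0 = p ^ k := by
      have hHK : H ≤ K := (le_T H b).trans le_sup_left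
      obtain ⟨P, hP⟩ := IsPGroup.exists_le_sylow (G := K) (hH.comap_subtype (K := K))
      refine ⟨(P : Subgroup K).map K.subtype, fun x hx => ⟨⟨x, hHK hx⟩, hP hx, rfl⟩,
        map_subtype_le _, ?_⟩
      rw [card_map_of_injective Subtype.val_injective, P.card_eq_multiplicity, hfac]
    have hNK : N ≤ K := le_sup_right
    have hbK : b ∈ normalizer (K : Set G) := by
      rw [mem_normalizer_iff'']
      intro x
      rw [hK, ← SetLike.mem_coe, ← SetLike.mem_coe, mul_normal]
      constructor
      · rintro ⟨w, hw, m, hm, rfl⟩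
        exact ⟨b⁻¹ * w * b, (mem_normalizer_iff''.1 (mem_normalizer_T H b) w).1 hw, b⁻¹ * m * b,
          by simpa using Normal.conj_mem ‹N.Normal› m hm b⁻¹, by group⟩
      · rintro ⟨w, hw, m, hm, he⟩
        refine ⟨b * w * b⁻¹, (mem_normalizer_iff.1 (mem_normalizer_T H b) w).1 hw, b * m * b⁻¹,
          Normal.conj_mem ‹N.Normal› m hm b, ?_⟩
        have he' : w * m = b⁻¹ * x * b := he
        have : x = b * (w * m) * b⁻¹ := by rw [he']; group
        rw [this]; group
    obtain ⟨a0, ha0N, ha0W⟩ : ∃ a0 : G, a0⁻¹ * b ∈ N ∧ a0 ∈ normalizer (W0 : Set G) := by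
      obtain ⟨n, hn, he⟩ := hconj W0 (W0.map (MulAut.conj b).toMonoidHom) hW0K
        (by rintro _ ⟨x, hx, rfl⟩; exact (mem_normalizer_iff.1 hbK x).1 (hW0K hx)) hW0c
        (by rw [← hW0c]; exact card_map_of_injective (MulEquiv.injective _))
      refine ⟨n⁻¹ * b, ?_, mem_normalizer_fintype ?_⟩
      · simpa [mul_assoc] using Normal.conj_mem ‹N.Normal› n hn b⁻¹
      · intro x hx
        have : b * x * b⁻¹ ∈ W0.map (MulAut.conj n).toMonoidHom := he ▸ ⟨x, hx, rfl⟩
        obtain ⟨y, hy, hye⟩ := this
        have hye' : n * y * n⁻¹ = b * x * b⁻¹ := hye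
        have : n⁻¹ * b * x * (n⁻¹ * b)⁻¹ = y := by
          calc n⁻¹ * b * x * (n⁻¹ * b)⁻¹ = n⁻¹ * (b * x * b⁻¹) * n := by group
            _ = y := by rw [← hye']; group
        show n⁻¹ * b * x * (n⁻¹ * b)⁻¹ ∈ (W0 : Set G)
        rw [this]; exact hy
    set M := N ⊓ normalizer (W0 : Set G) with hM
    have hcent : ∀ n ∈ N, (∀ h ∈ H, n⁻¹ * h * n ∈ W0) → n ∈ C := by
      intro n hn hh
      refine ⟨hn, mem_centralizer_iff.2 fun h hh' => ?_⟩
      have h1 : n⁻¹ * h * n * h⁻¹ ∈ W0 ⊓ N := mem_inf.2 ⟨mul_mem (hh h hh') (inv_mem (hHW0 hh')), by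
        rw [show n⁻¹ * h * n * h⁻¹ = n⁻¹ * (h * n * h⁻¹) by group]
        exact mul_mem (inv_mem hn) (Normal.conj_mem ‹N.Normal› n hn h)⟩
      rw [PCore.inf_eq_bot_of_isPGroup_of_coprime (IsPGroup.of_card hW0c) hN, mem_bot] at h1
      calc h * n = n * (n⁻¹ * h * n * h⁻¹) * h := by group
        _ = n * h := by rw [h1, mul_one]
    have hMC : M ≤ C := fun m hm => hcent m (mem_inf.1 hm).1 fun h hh =>
      (mem_normalizer_iff''.1 (mem_inf.1 hm).2 h).1 (hHW0 hh)
    let r : G → G → Prop := fun a c => T H a = W0.map (MulAut.conj c).toMonoidHom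
    refine Nat.eq_of_mul_eq_mul_right
      (show 0 < (Finset.univ.filter (· ∈ M)).card from
        Finset.card_pos.2 ⟨1, by simp⟩) (Finset.card_mul_eq_card_mul r ?_ ?_)
    · intro a ha
      obtain ⟨hTK, hTc⟩ := hT a ha
      obtain ⟨n, hn, hne⟩ := hconj W0 (T H a) hW0K hTK hW0c hTc
      have hnC : n ∈ C := hcent n hn fun h hh => by
        have : h ∈ W0.map (MulAut.conj n).toMonoidHom := hne ▸ le_T H a hh
        obtain ⟨y, hy, rfl⟩ := this
        simpa [mul_assoc] using hy
      symm
      refine Finset.card_bij (fun m _ => n * m) ?_ (fun _ _ _ _ h => mul_left_cancel h) ?_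
      · intro m hm
        simp only [Finset.mem_filter, Finset.mem_univ, true_and] at hm
        simp only [Finset.mem_bipartiteAbove, Finset.mem_filter, Finset.mem_univ, true_and]
        refine ⟨mul_mem hnC (hMC hm), ?_⟩
        show T H a = _
        rw [hne]
        ext x
        constructor
        · rintro ⟨y, hy, rfl⟩
          exact ⟨m⁻¹ * y * m, (mem_normalizer_iff''.1 (mem_inf.1 hm).2 y).1 hy, by simp [mul_assoc]⟩
        · rintro ⟨y, hy, rfl⟩
          exact ⟨m * y * m⁻¹, (mem_normalizer_iff.1 (mem_inf.1 hm).2 y).1 hy, by simp [mul_assoc]⟩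
      · intro c hc
        simp only [Finset.mem_bipartiteAbove, Finset.mem_filter, Finset.mem_univ, true_and] at hc
        obtain ⟨hcC, hcr⟩ := hc
        refine ⟨n⁻¹ * c, ?_, by group⟩
        simp only [Finset.mem_filter, Finset.mem_univ, true_and]
        refine mem_inf.2 ⟨mul_mem (inv_mem hn) (mem_inf.1 hcC).1, mem_normalizer_fintype fun x hx => ?_⟩
        have hcr' : T H a = W0.map (MulAut.conj c).toMonoidHom := hcr
        have : c * x * c⁻¹ ∈ W0.map (MulAut.conj n).toMonoidHom := by
          rw [← hne, hcr']; exact ⟨x, hx, rfl⟩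
        obtain ⟨y, hy, hye⟩ := this
        have hye' : n * y * n⁻¹ = c * x * c⁻¹ := hye
        show n⁻¹ * c * x * (n⁻¹ * c)⁻¹ ∈ (W0 : Set G)
        have : n⁻¹ * c * x * (n⁻¹ * c)⁻¹ = y := by
          calc n⁻¹ * c * x * (n⁻¹ * c)⁻¹ = n⁻¹ * (c * x * c⁻¹) * n := by group
            _ = y := by rw [← hye']; group
        rw [this]; exact hy
    · intro c hc
      simp only [Finset.mem_filter, Finset.mem_univ, true_and] at hc
      set V := W0.map (MulAut.conj c).toMonoidHom with hV
      have hHV : H ≤ V := fun h hh => ⟨h, hHW0 hh, by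
        have := mem_centralizer_iff.1 (mem_inf.1 hc).2 h hh
        simp [← this, mul_assoc]⟩
      have hVc : Nat.card V = p ^ k := (card_map_of_injective (MulEquiv.injective _)).trans hW0c
      symm
      refine Finset.card_bij (fun m _ => c * (a0 * m) * c⁻¹) ?_
        (fun _ _ _ _ h => mul_left_cancel (mul_left_cancel (mul_right_cancel h))) ?_
      · intro m hm
        simp only [Finset.mem_filter, Finset.mem_univ, true_and] at hm
        have haV : c * (a0 * m) * c⁻¹ ∈ normalizer (V : Set G) :=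
          conj_mem_normalizer (mul_mem ha0W (mem_inf.1 hm).2)
        have haA : c * (a0 * m) * c⁻¹ ∈ A := by
          refine (hAmem _).2 ⟨cond_bot_iff.2 ⟨V, hHV, haV, IsPGroup.of_card hVc⟩, ?_⟩
          rw [← QuotientGroup.eq, ← QuotientGroup.mk'_apply, ← QuotientGroup.mk'_apply]
          have h1 : ∀ x ∈ N, QuotientGroup.mk' N x = 1 := fun x hx => (QuotientGroup.eq_one_iff x).2 hx
          have h2 : QuotientGroup.mk' N a0 = QuotientGroup.mk' N b := QuotientGroup.eq.2 ha0N
          rw [map_mul, map_mul, map_mul, h1 c (mem_inf.1 hc).1, h1 m (mem_inf.1 hm).1, h1 _ (inv_mem (mem_inf.1 hc).1), h2]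
          simp
        simp only [Finset.mem_bipartiteBelow]
        exact ⟨haA, eq_of_le_of_card_ge (T_le hHV haV) (by rw [hVc, (hT _ haA).2])⟩
      · intro a ha
        simp only [Finset.mem_bipartiteBelow] at ha
        obtain ⟨haA, har⟩ := ha
        have har' : T H a = V := har
        refine ⟨a0⁻¹ * (c⁻¹ * a * c), ?_, by group⟩
        simp only [Finset.mem_filter, Finset.mem_univ, true_and]
        refine mem_inf.2 ⟨?_, mul_mem (inv_mem ha0W) ?_⟩
        · have h1 : ∀ x ∈ N, QuotientGroup.mk' N x = 1 := fun x hx => (QuotientGroup.eq_one_iff x).2 hx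
          have h2 : QuotientGroup.mk' N a0 = QuotientGroup.mk' N b := QuotientGroup.eq.2 ha0N
          have h3 : QuotientGroup.mk' N a = QuotientGroup.mk' N b :=
            QuotientGroup.eq.2 ((hAmem a).1 haA).2
          rw [← QuotientGroup.eq_one_iff, ← QuotientGroup.mk'_apply]
          simp only [map_mul, map_inv, h1 c (mem_inf.1 hc).1, h2, h3]
          simp
        · have h := conj_mem_normalizer (c := c⁻¹) (har' ▸ mem_normalizer_T H a)
          rw [inv_inv, hV, map_map] at h
          have he : W0.map ((MulAut.conj c⁻¹).toMonoidHom.comp (MulAut.conj c).toMonoidHom) = W0 := by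
            ext x
            simp [mem_map, mul_assoc]
          rwa [he] at h

/-- Telescoping along a series. -/
theorem telescope : ∀ (n : ℕ) (F : Fin (n + 1) → ℕ) (d e : Fin n → ℕ),
    (∀ i : Fin n, F i.castSucc * d i = F i.succ * e i) →
    F 0 * ∏ i, d i = F (Fin.last n) * ∏ i, e i
  | 0, F, d, e, _ => by simp
  | n + 1, F, d, e, h => by
    have ih := telescope n (fun i => F i.succ) (fun i => d i.succ) (fun i => e i.succ)
      (fun i => by have := h i.succ; rwa [← Fin.succ_castSucc] at this)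
    have h0 := h 0
    rw [Fin.castSucc_zero] at h0
    rw [Fin.succ_last] at ih
    rw [Fin.prod_univ_succ, Fin.prod_univ_succ]
    calc F 0 * (d 0 * ∏ i : Fin n, d i.succ) = F 0 * d 0 * ∏ i : Fin n, d i.succ := by ring
      _ = e 0 * (F (Fin.succ 0) * ∏ i : Fin n, d i.succ) := by rw [h0]; ring
      _ = e 0 * (F (Fin.last (n + 1)) * ∏ i : Fin n, e i.succ) := by rw [ih]
      _ = F (Fin.last (n + 1)) * (e 0 * ∏ i : Fin n, e i.succ) := by ring

/-- A step of the series whose index is prime to `p`. -/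
theorem card_cond_factor [Finite G] {M M' H : Subgroup G} [hM : M.Normal] [hM' : M'.Normal]
    (h : M ≤ M') (hH : IsPGroup p H) (hcop : (M.relIndex M').Coprime p) :
    Nat.card {g : G // Cond p M H g} * M.relIndex M' =
      Nat.card {g : G // Cond p M' H g} *
        (Nat.card {u : G // u ∈ M' ∧ ∀ x ∈ H, x * u * x⁻¹ * u⁻¹ ∈ M} / Nat.card M) := by
  set f := QuotientGroup.mk' M with hf
  have hfs : Function.Surjective f := QuotientGroup.mk'_surjective M
  haveI : (M'.map f).Normal := hM'.map f hfs
  have hN : Nat.card (M'.map f) = M.relIndex M' := by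
    have := relIndex_comap (⊥ : Subgroup (G ⧸ M)) f M'
    rw [MonoidHom.comap_bot, QuotientGroup.ker_mk', relIndex_bot_left] at this
    exact this.symm
  have hcount : ∀ L : Subgroup G, M ≤ L → Nat.card {g : G // Cond p L H g} =
      Nat.card M * Nat.card {q : G ⧸ M // Cond p (L.map f) (H.map f) q} := by
    intro L hL
    classical
    haveI := Fintype.ofFinite G
    rw [Nat.card_congr (Equiv.subtypeEquivRight fun g => (cond_map_iff (p := p) hL).symm)]
    rw [← Nat.card_prod]
    refine Nat.card_congr ?_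
    refine ((Equiv.prodComm _ _).trans
      ((Equiv.sigmaEquivProd _ _).symm.trans ?_)).symm
    refine (Equiv.sigmaCongrRight fun q => ?_).trans
      (Equiv.sigmaSubtypeFiberEquivSubtype f (fun g => Iff.rfl))
    exact ((Subgroup.leftCosetEquivSubgroup ((q.1.out : G))).symm).trans
      (Equiv.subtypeEquivRight fun x => by
        rw [mem_leftCoset_iff, SetLike.mem_coe, ← QuotientGroup.eq]
        show (((q.1.out : G)) : G ⧸ M) = x ↔ (x : G ⧸ M) = q.1
        rw [QuotientGroup.out_eq', eq_comm])
  have hstep := card_cond_step (p := p) (M'.map f) (H.map f) (hH.map f) (by rw [hN]; exact hcop)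
  have hbot : M.map f = ⊥ := by rw [Subgroup.map_eq_bot_iff, QuotientGroup.ker_mk']
  rw [hcount M le_rfl, hcount M' h, hbot]
  have hC : Nat.card {u : G // u ∈ M' ∧ ∀ x ∈ H, x * u * x⁻¹ * u⁻¹ ∈ M} =
      Nat.card M * Nat.card ↥(M'.map f ⊓ centralizer (H.map f : Set (G ⧸ M))) := by
    rw [← PCore.card_comap_mk']
    refine Nat.card_congr (Equiv.subtypeEquivRight fun u => ?_)
    rw [mem_comap, mem_inf]
    refine and_congr ?_ ?_
    · rw [← mem_comap, comap_map_eq_self (by rw [QuotientGroup.ker_mk']; exact h)]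
    · rw [mem_centralizer_iff]
      have key : ∀ x : G, x * u * x⁻¹ * u⁻¹ ∈ M ↔ f x * f u = f u * f x := by
        intro x
        rw [← QuotientGroup.eq_one_iff, ← QuotientGroup.mk'_apply,
          ← commutatorElement_eq_one_iff_mul_comm, commutatorElement_def]
        simp only [map_mul, map_inv]
        exact Iff.rfl
      exact ⟨fun h => by rintro _ ⟨x, hx, rfl⟩; exact (key x).1 (h x hx),
        fun h x hx => (key x).2 (h _ (mem_map_of_mem f hx))⟩
  rw [hC, Nat.mul_div_cancel_left _ Nat.card_pos, ← hN]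
  calc _ = Nat.card M * (Nat.card {q : G ⧸ M // Cond p ⊥ (H.map f) q} * Nat.card (M'.map f)) := by
        ring
    _ = _ := by rw [hstep]; ring

end CfsgLib.Subnormalizer
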