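import Cfsg.Agent.Subnormalizer.FixedBound
import Cfsg.Agent.PCore.PSolvable
import Mathlib.Analysis.MeanInequalities
import Mathlib.GroupTheory.GroupAction.Quotient

/-! Gheri's bound on the number of `p`-elements of a `p`-solvable group, through the numbers
of Sylow subgroups containing a given element. -/

set_option autoImplicit false

universe u

namespace CfsgLib.Subnormalizer.SylowCount

open Subgroup FixedBound
open scoped Pointwise

variable {G : Type*} [Group G]

/-- The number of Sylow subgroups containing `x`. -/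
noncomputable def nu (p : ℕ) (x : G) : ℕ := Nat.card {Q : Sylow p G // x ∈ (Q : Subgroup G)}

theorem nu_one (p : ℕ) : nu p (1 : G) = Nat.card (Sylow p G) :=
  Nat.card_congr (Equiv.subtypeUnivEquiv fun Q => one_mem _)

theorem mem_smul_iff {p : ℕ} {g x : G} {Q : Sylow p G} :
    x ∈ ((g • Q : Sylow p G) : Subgroup G) ↔ g⁻¹ * x * g ∈ (Q : Subgroup G) := by
  rw [Sylow.coe_subgroup_smul, CoprimeAction.mem_conj_smul]

theorem nu_conj {p : ℕ} (g x : G) : nu p (g * x * g⁻¹) = nu p x :=
  (Nat.card_congr ((MulAction.toPerm g : Equiv.Perm (Sylow p G)).subtypeEquiv fun Q => by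
    rw [MulAction.toPerm_apply, mem_smul_iff]; simp [mul_assoc])).symm

theorem nu_pgroup [Finite G] {p : ℕ} [hp : Fact p.Prime] (N : Subgroup G) [N.Normal]
    (hN : IsPGroup p N) (x : G) : nu p x = nu p (QuotientGroup.mk' N x) := by
  set f := QuotientGroup.mk' N with hf
  have hfs : Function.Surjective f := QuotientGroup.mk'_surjective N
  have hcm : ∀ Q : Sylow p G, ((Q.mapSurjective hfs : Sylow p (G ⧸ N)) : Subgroup (G ⧸ N)).comap f = Q :=
    fun Q => by
      rw [Sylow.coe_mapSurjective]
      exact comap_map_eq_self (by rw [QuotientGroup.ker_mk']; exact hN.le_sylow_of_normal Q)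
  have hb : Function.Bijective (Sylow.mapSurjective hfs : Sylow p G → Sylow p (G ⧸ N)) :=
    ⟨fun Q R h => Sylow.ext (by rw [← hcm Q, ← hcm R, h]), Sylow.mapSurjective_surjective hfs p⟩
  refine Nat.card_congr ((Equiv.ofBijective _ hb).subtypeEquiv fun Q => ?_)
  conv_lhs => rw [← hcm Q]
  exact mem_comap

theorem card_inf_normalizer [Finite G] {p : ℕ} [Fact p.Prime] (N : Subgroup G) [N.Normal]
    (Q : Sylow p G) (P : Sylow p G) :
    Nat.card ↥(N ⊓ normalizer ((Q : Subgroup G) : Set G)) =
      Nat.card ↥(N ⊓ normalizer ((P : Subgroup G) : Set G)) := by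
  obtain ⟨g, rfl⟩ := MulAction.exists_smul_eq G Q P
  refine Nat.card_congr ((MulAut.conj g).toEquiv.subtypeEquiv fun n => ?_)
  show n ∈ N ⊓ _ ↔ g * n * g⁻¹ ∈ N ⊓ _
  have hmem : ∀ (S : Sylow p G) (a : G), a ∈ normalizer ((S : Subgroup G) : Set G) ↔ a • S = S :=
    fun S a => Sylow.smul_eq_iff_mem_normalizer.symm
  rw [mem_inf, mem_inf, hmem, hmem,
    ← mul_smul, show g * n * g⁻¹ * g = g * n by group, mul_smul, smul_left_cancel_iff]
  exact and_congr_left fun _ => ⟨fun h => Normal.conj_mem ‹N.Normal› n h g, fun h => by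
    simpa [mul_assoc] using Normal.conj_mem ‹N.Normal› _ h g⁻¹⟩

theorem inf_normalizer_le [Finite G] {p : ℕ} [Fact p.Prime] {N : Subgroup G} [N.Normal]
    (hN : (Nat.card N).Coprime p) (Q : Sylow p G) {n x : G} (hn : n ∈ N) (hx : x ∈ (Q : Subgroup G))
    (h : n⁻¹ * x * n ∈ (Q : Subgroup G)) : n ∈ centralizer (zpowers x : Set G) := by
  rw [mem_centralizer_zpowers_iff]
  have h1 : n⁻¹ * x * n * x⁻¹ ∈ (Q : Subgroup G) ⊓ N := mem_inf.2 ⟨mul_mem h (inv_mem hx), by
    rw [show n⁻¹ * x * n * x⁻¹ = n⁻¹ * (x * n * x⁻¹) by group]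
    exact mul_mem (inv_mem hn) (Normal.conj_mem ‹N.Normal› n hn x)⟩
  rw [PCore.inf_eq_bot_of_isPGroup_of_coprime Q.isPGroup' hN, mem_bot] at h1
  calc x * n = n * (n⁻¹ * x * n * x⁻¹) * x := by group
    _ = n * x := by rw [h1, mul_one]

theorem inf_normalizer_eq [Finite G] {p : ℕ} [Fact p.Prime] (N : Subgroup G) [N.Normal]
    (hN : (Nat.card N).Coprime p) (Q : Sylow p G) :
    N ⊓ normalizer ((Q : Subgroup G) : Set G) = N ⊓ centralizer ((Q : Subgroup G) : Set G) := by
  refine le_antisymm (fun n hn => mem_inf.2 ⟨(mem_inf.1 hn).1, mem_centralizer_iff.2 fun x hx => ?_⟩)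
    (inf_le_inf_left _ (centralizer_le_normalizer _))
  exact mem_centralizer_zpowers_iff.1 (inf_normalizer_le hN Q (mem_inf.1 hn).1 hx
    ((mem_normalizer_iff''.1 (mem_inf.1 hn).2 x).1 hx))

theorem nu_pPrime [Finite G] {p : ℕ} [hp : Fact p.Prime] (N : Subgroup G) [N.Normal]
    (hN : (Nat.card N).Coprime p) (P : Sylow p G) {x : G} (hx : x ∈ (P : Subgroup G)) :
    nu p x * Nat.card ↥(N ⊓ centralizer ((P : Subgroup G) : Set G)) =
      nu p (QuotientGroup.mk' N x) * Nat.card ↥(N ⊓ centralizer (zpowers x : Set G)) := by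
  classical
  set f := QuotientGroup.mk' N with hf
  have hfs : Function.Surjective f := QuotientGroup.mk'_surjective N
  set C := N ⊓ centralizer (zpowers x : Set G) with hC
  set T := {Q : Sylow p (G ⧸ N) // f x ∈ (Q : Subgroup (G ⧸ N))}
  let m : {Q : Sylow p G // x ∈ (Q : Subgroup G)} → T :=
    fun Q => ⟨Q.1.mapSurjective hfs, mem_map_of_mem f Q.2⟩
  have hker : f.ker = N := QuotientGroup.ker_mk' N
  have hfib : ∀ t : T, Nat.card {Q // m Q = t} *
      Nat.card ↥(N ⊓ centralizer ((P : Subgroup G) : Set G)) = Nat.card C := by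
    intro t
    obtain ⟨Qa, hQa⟩ := Sylow.mapSurjective_surjective hfs p t.1
    set K := (t.1 : Subgroup (G ⧸ N)).comap f
    have hQK : (Qa : Subgroup G) ≤ K := map_le_iff_le_comap.1 (by rw [← hQa]; exact le_of_eq (Sylow.coe_mapSurjective hfs Qa).symm)
    have hK : K = (Qa : Subgroup G) ⊔ N := by
      show (t.1 : Subgroup (G ⧸ N)).comap f = _
      rw [← hQa, Sylow.coe_mapSurjective, comap_map_eq, hker]
    obtain ⟨R, hR⟩ := IsPGroup.exists_le_sylow (G := K)
      ((P.isPGroup'.to_le (zpowers_le.2 hx)).comap_subtype (K := K))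
    obtain ⟨k, hk⟩ := MulAction.exists_smul_eq K (Qa.subtype hQK) R
    have hx0 : x ∈ (((k : G) • Qa : Sylow p G) : Subgroup G) := by
      have h2 : (⟨x, t.2⟩ : K) ∈ ((k • Qa.subtype hQK : Sylow p K) : Subgroup K) :=
        hk ▸ hR (mem_zpowers x)
      rw [mem_smul_iff] at h2 ⊢
      exact h2
    have hm0 : ((k : G) • Qa).mapSurjective hfs = t.1 := by
      have e : ((k : G) • Qa).mapSurjective hfs = f k • Qa.mapSurjective hfs := by
        apply Sylow.ext
        rw [Sylow.coe_mapSurjective, Sylow.coe_subgroup_smul, Sylow.coe_subgroup_smul,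
          Sylow.coe_mapSurjective]
        exact CoprimeAction.map_conj_smul f _ _
      rw [e, hQa, Sylow.smul_eq_iff_mem_normalizer]
      exact le_normalizer k.2
    set Q0 := (k : G) • Qa
    letI : Fintype C := Fintype.ofFinite _
    have h1 : Nat.card {Q // m Q = t} = Nat.card (MulAction.orbit C Q0) := by
      refine Nat.card_congr ((Equiv.subtypeSubtypeEquivSubtypeExists _ _).trans
        (Equiv.subtypeEquivRight fun Q => ?_))
      constructor
      · rintro ⟨hxQ, hQ⟩
        have hQt : Q.mapSurjective hfs = t.1 := congrArg Subtype.val hQ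
        have hle : ∀ S : Sylow p G, S.mapSurjective hfs = t.1 → (S : Subgroup G) ≤ K := fun S hS =>
          map_le_iff_le_comap.1 (by rw [← hS]; exact le_of_eq (Sylow.coe_mapSurjective hfs S).symm)
        obtain ⟨y, hy⟩ := MulAction.exists_smul_eq K (Q0.subtype (hle _ hm0)) (Q.subtype (hle _ hQt))
        rw [Sylow.smul_subtype] at hy
        replace hy := Sylow.subtype_injective hy
        have hy' : (y : G) ∈ (N : Set G) * ((Q0 : Subgroup G) : Set G) := by
          rw [← normal_mul, SetLike.mem_coe, sup_comm,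
            show (Q0 : Subgroup G) ⊔ N = K by
              show _ = (t.1 : Subgroup (G ⧸ N)).comap f
              rw [← hm0, Sylow.coe_mapSurjective, comap_map_eq, hker]]
          exact y.2
        obtain ⟨n, hn, q, hq, hnq⟩ := hy'
        have hnq' : n * q = y := hnq
        have hQn : n • Q0 = Q := by
          rw [← hy]
          show n • Q0 = (y : G) • Q0
          rw [← hnq', mul_smul, Sylow.smul_eq_iff_mem_normalizer.2 (le_normalizer hq)]
        refine ⟨⟨n, mem_inf.2 ⟨hn, inf_normalizer_le hN Q0 hn hx0 ?_⟩⟩, hQn⟩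
        rwa [← hQn, mem_smul_iff] at hxQ
      · rintro ⟨⟨c, hc⟩, rfl⟩
        obtain ⟨hcN, hcx⟩ := mem_inf.1 hc
        have hxc : x ∈ ((c • Q0 : Sylow p G) : Subgroup G) := by
          rw [mem_smul_iff, mul_assoc, mem_centralizer_zpowers_iff.1 hcx, inv_mul_cancel_left]
          exact hx0
        refine ⟨hxc, Subtype.ext ?_⟩
        show (c • Q0).mapSurjective hfs = t.1
        rw [← hm0]
        apply Sylow.ext
        rw [Sylow.coe_mapSurjective, Sylow.coe_mapSurjective, Sylow.coe_subgroup_smul]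
        show (MulAut.conj c • (Q0 : Subgroup G)).map f = _
        rw [CoprimeAction.map_conj_smul, show f c = 1 from (QuotientGroup.eq_one_iff c).2 hcN,
          map_one, one_smul]
    have h2 : Nat.card ↥(N ⊓ centralizer ((P : Subgroup G) : Set G)) =
        Nat.card (MulAction.stabilizer C Q0) := by
      rw [← inf_normalizer_eq N hN P, ← card_inf_normalizer N Q0 P]
      exact Nat.card_congr {
        toFun := fun n => ⟨⟨n.1, mem_inf.2 ⟨(mem_inf.1 n.2).1, inf_normalizer_le hN Q0 (mem_inf.1 n.2).1 hx0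
          ((mem_normalizer_iff''.1 (mem_inf.1 n.2).2 x).1 hx0)⟩⟩,
          Sylow.smul_eq_iff_mem_normalizer.2 (mem_inf.1 n.2).2⟩
        invFun := fun c => ⟨c.1.1, mem_inf.2 ⟨(mem_inf.1 c.1.2).1, Sylow.smul_eq_iff_mem_normalizer.1 c.2⟩⟩
        left_inv := fun _ => rfl
        right_inv := fun _ => rfl }
    letI : Fintype (MulAction.orbit C Q0) := Fintype.ofFinite _
    letI : Fintype (MulAction.stabilizer C Q0) := Fintype.ofFinite _
    rw [h1, h2, Nat.card_eq_fintype_card, Nat.card_eq_fintype_card, Nat.card_eq_fintype_card]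
    exact MulAction.card_orbit_mul_card_stabilizer_eq_card_group C Q0
  haveI : Fintype T := Fintype.ofFinite T
  rw [nu, ← Nat.card_congr (Equiv.sigmaFiberEquiv m), Nat.card_sigma, Finset.sum_mul,
    Finset.sum_congr rfl fun t _ => hfib t, Finset.sum_const, Finset.card_univ, smul_eq_mul,
    ← Nat.card_eq_fintype_card]
  rfl

/-- The product bound for the Sylow counts. -/
theorem prod_nu_le {p : ℕ} [hp : Fact p.Prime] : ∀ (n : ℕ) (G : Type u) [Group G] [Finite G],
    Nat.card G ≤ n → Cfsg.IsPSolvable p G → ∀ P : Sylow p G,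
      (∏ᶠ x : (P : Subgroup G), nu p (x : G)) ^ p ≤ Nat.card (Sylow p G) ^ Nat.card (P : Subgroup G) := by
  intro n
  induction n with
  | zero => intro G _ _ h; exact absurd h (not_le.2 Nat.card_pos)
  | succ n ih =>
    intro G _ _ hn hs P
    classical
    haveI : Fintype (P : Subgroup G) := Fintype.ofFinite _
    rcases subsingleton_or_nontrivial G with hG | hG
    · have h1 : ∀ x : G, nu p x = 1 := fun x => by
        rw [Subsingleton.elim x 1, nu_one]
        exact Nat.card_eq_one_iff_unique.2 ⟨⟨fun a b => Sylow.ext (Subsingleton.elim _ _)⟩, inferInstance⟩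
      simp only [h1, finprod_one, one_pow]
      exact Nat.one_le_pow _ _ Nat.card_pos
    have hsmall : ∀ (N : Subgroup G) [N.Normal], N ≠ ⊥ → Nat.card (G ⧸ N) ≤ n := by
      intro N _ hN
      have h1 := Subgroup.card_eq_card_quotient_mul_card_subgroup N
      have h2 : 1 < Nat.card N := (N.one_lt_card_iff_ne_bot).2 hN
      have h3 : 0 < Nat.card (G ⧸ N) := Nat.card_pos
      nlinarith
    rcases PCore.cores_ne_bot hs with hN | hN
    · set N := Cfsg.pCore p G with hNdef
      haveI : N.Normal := Subgroup.sSup_normal _ fun _ h => h.1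
      have hNp : IsPGroup p N := PCore.isPGroup_pCore p G
      set f := QuotientGroup.mk' N with hf
      have hfs : Function.Surjective f := QuotientGroup.mk'_surjective N
      have hb := ih (G ⧸ N) (hsmall N hN) (PCore.isPSolvable_quotient hs N) (P.mapSurjective hfs)
      set φ := f.subgroupMap (P : Subgroup G) with hφ
      haveI : Fintype ↥((P : Subgroup G).map f) := Fintype.ofFinite _
      have hb' : (∏ y : ↥((P : Subgroup G).map f), nu p (y : G ⧸ N)) ^ p ≤
          Nat.card (Sylow p (G ⧸ N)) ^ Nat.card ↥((P : Subgroup G).map f) := by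
        rw [← finprod_eq_prod_of_fintype]
        exact hb
      have hfibre : ∀ y, (Finset.univ.filter fun x => φ x = y).card = Nat.card φ.ker := by
        intro y
        obtain ⟨x0, rfl⟩ := f.subgroupMap_surjective (P : Subgroup G) y
        rw [Nat.card_eq_fintype_card, ← Finset.card_univ]
        refine Finset.card_bij (fun x hx => ⟨x0⁻¹ * x, by
            simp only [Finset.mem_filter] at hx
            rw [MonoidHom.mem_ker, map_mul, map_inv, hx.2, inv_mul_cancel]⟩)
          (fun _ _ => Finset.mem_univ _) (fun _ _ _ _ h => mul_left_cancel (congrArg Subtype.val h))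
          (fun b _ => ⟨x0 * b, by simp [MonoidHom.mem_ker.1 b.2]; rfl, Subtype.ext (by simp)⟩)
      have hPc : Nat.card (P : Subgroup G) = Nat.card ↥((P : Subgroup G).map f) * Nat.card φ.ker := by
        rw [Subgroup.card_eq_card_quotient_mul_card_subgroup φ.ker,
          Nat.card_congr (QuotientGroup.quotientKerEquivOfSurjective φ (f.subgroupMap_surjective _)).toEquiv]
      have hyf : ∀ y, ∏ x ∈ Finset.univ.filter (fun x => φ x = y), nu p (x : G) =
          nu p (y : G ⧸ N) ^ Nat.card φ.ker := by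
        intro y
        rw [← hfibre y]
        refine Finset.prod_eq_pow_card fun x hx => ?_
        simp only [Finset.mem_filter] at hx
        rw [← hx.2, nu_pgroup N hNp]
        rfl
      rw [finprod_eq_prod_of_fintype, ← Finset.prod_fiberwise (s := Finset.univ) (g := φ),
        Finset.prod_congr rfl fun y _ => hyf y,
        Finset.prod_pow, ← pow_mul, mul_comm (Nat.card φ.ker), pow_mul, hPc, pow_mul,
        ← nu_one, nu_pgroup N hNp 1, map_one, nu_one]
      exact Nat.pow_le_pow_left hb' _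
    · set N := Cfsg.pPrimeCore p G with hNdef
      haveI : N.Normal := Subgroup.sSup_normal _ fun _ h => h.1
      have hNc : (Nat.card N).Coprime p := PCore.pPrimeCore_coprime p G
      set f := QuotientGroup.mk' N with hf
      have hfs : Function.Surjective f := QuotientGroup.mk'_surjective N
      have hb := ih (G ⧸ N) (hsmall N hN) (PCore.isPSolvable_quotient hs N) (P.mapSurjective hfs)
      set φ := f.subgroupMap (P : Subgroup G) with hφ
      have hφb : Function.Bijective φ := by
        refine ⟨fun a b h => Subtype.ext ?_, f.subgroupMap_surjective _⟩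
        have h' : f a = f b := congrArg Subtype.val h
        have : (a : G)⁻¹ * b ∈ (P : Subgroup G) ⊓ N :=
          mem_inf.2 ⟨mul_mem (inv_mem a.2) b.2, QuotientGroup.eq.1 h'⟩
        rw [PCore.inf_eq_bot_of_isPGroup_of_coprime P.isPGroup' hNc, mem_bot] at this
        exact inv_mul_eq_one.1 this
      have hb' : (∏ x : (P : Subgroup G), nu p (f x)) ^ p ≤
          Nat.card (Sylow p (G ⧸ N)) ^ Nat.card (P : Subgroup G) := by
        rw [← finprod_eq_prod_of_fintype,
          finprod_eq_of_bijective (f := fun x : (P : Subgroup G) => nu p (f x))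
            (g := fun y : ↥((P : Subgroup G).map f) => nu p (y : G ⧸ N)) φ hφb fun x => rfl,
          Nat.card_eq_of_bijective φ hφb]
        exact hb
      have hU := bnd (U := N) (p := p) P.isPGroup' (by rw [normalizer_eq_top]; exact le_top) hNc
      rw [Bnd, finprod_eq_prod_of_fintype] at hU
      set c := Nat.card ↥(N ⊓ centralizer ((P : Subgroup G) : Set G)) with hc
      have h1 : Nat.card (Sylow p G) * c = Nat.card (Sylow p (G ⧸ N)) * Nat.card N := by
        have := nu_pPrime N hNc P (one_mem (P : Subgroup G))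
        rwa [nu_one, map_one, nu_one, zpowers_one_eq_bot, inf_eq_left.2 (show N ≤ centralizer ((⊥ : Subgroup G) : Set G) from
          fun n _ => mem_centralizer_iff.2 fun y hy => by simp [mem_bot.1 hy])] at this
      have h2 : (∏ x : (P : Subgroup G), nu p (x : G)) * c ^ Nat.card (P : Subgroup G) =
          (∏ x : (P : Subgroup G), nu p (f x)) *
            ∏ x : (P : Subgroup G), Nat.card ↥(N ⊓ centralizer (zpowers (x : G) : Set G)) := by
        rw [Nat.card_eq_fintype_card, ← Finset.card_univ, ← Finset.prod_const, ← Finset.prod_mul_distrib,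
          ← Finset.prod_mul_distrib]
        exact Finset.prod_congr rfl fun x _ => nu_pPrime N hNc P x.2
      rw [finprod_eq_prod_of_fintype]
      refine Nat.le_of_mul_le_mul_right ?_ (pow_pos (Nat.card_pos (α := ↥(N ⊓ centralizer ((P : Subgroup G) : Set G))))
        (p * Nat.card (P : Subgroup G)))
      calc (∏ x : (P : Subgroup G), nu p (x : G)) ^ p * c ^ (p * Nat.card (P : Subgroup G))
          = ((∏ x : (P : Subgroup G), nu p (f x)) *
            ∏ x : (P : Subgroup G), Nat.card ↥(N ⊓ centralizer (zpowers (x : G) : Set G))) ^ p := by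
            rw [← h2]; ring
        _ ≤ Nat.card (Sylow p (G ⧸ N)) ^ Nat.card (P : Subgroup G) *
            (Nat.card N ^ Nat.card (P : Subgroup G) * c ^ ((p - 1) * Nat.card (P : Subgroup G))) := by
            rw [mul_pow]; exact Nat.mul_le_mul hb' hU
        _ = _ := by
            rw [← mul_assoc, ← mul_pow, ← h1, mul_pow, mul_assoc, ← pow_add, ← hc]
            congr 2
            obtain ⟨m, hm⟩ : ∃ m, p = m + 1 := ⟨p - 1, by have := hp.out.two_le; omega⟩
            generalize Nat.card (P : Subgroup G) = a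
            rw [show (p - 1) = m by omega]
            calc a + m * a = (m + 1) * a := by ring
              _ = p * a := by rw [hm]

/-- Gheri's inequality. -/
theorem card_pElements_bound {G : Type u} [Group G] [Finite G] {p : ℕ} [hp : Fact p.Prime]
    (hs : Cfsg.IsPSolvable p G) (P : Sylow p G) :
    Nat.card (P : Subgroup G) ^ p * Nat.card (Sylow p G) ^ (p - 1) ≤
      Nat.card {g : G // ∃ k : ℕ, orderOf g = p ^ k} ^ p := by
  classical
  haveI : Fintype G := Fintype.ofFinite G
  haveI : Fintype (Sylow p G) := Fintype.ofFinite _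
  set a := Nat.card (P : Subgroup G) with ha
  set n := Nat.card (Sylow p G) with hn
  have hA := prod_nu_le (Nat.card G) G le_rfl hs P
  rw [finprod_eq_prod_of_fintype, ← ha, ← hn] at hA
  have hnu : ∀ x : (P : Subgroup G), 0 < (nu p (x : G) : ℝ) := by
    intro x
    haveI : Nonempty {Q : Sylow p G // (x : G) ∈ (Q : Subgroup G)} := ⟨⟨P, x.2⟩⟩
    exact_mod_cast (Nat.card_pos : 0 < nu p (x : G))
  set S : ℝ := ∑ x : (P : Subgroup G), (nu p (x : G) : ℝ)⁻¹ with hS
  have hcount : (n : ℝ) * S = Nat.card {g : G // ∃ k : ℕ, orderOf g = p ^ k} := by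
    have hmem : ∀ g : G, (∃ k : ℕ, orderOf g = p ^ k) ↔ ∃ Q : Sylow p G, g ∈ (Q : Subgroup G) := by
      intro g
      constructor
      · rintro ⟨k, hk⟩
        obtain ⟨Q, hQ⟩ := (IsPGroup.of_card (p := p) (n := k) (G := zpowers g)
          (by rw [Nat.card_zpowers, hk])).exists_le_sylow
        exact ⟨Q, hQ (mem_zpowers g)⟩
      · rintro ⟨Q, hQ⟩
        obtain ⟨k, hk⟩ := IsPGroup.iff_orderOf.1 Q.isPGroup' ⟨g, hQ⟩
        exact ⟨k, by rw [← hk, Subgroup.orderOf_mk]⟩
    have h1 : ∀ Q : Sylow p G, ∑ g : G, (if g ∈ (Q : Subgroup G) then (nu p g : ℝ)⁻¹ else 0) = S := by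
      intro Q
      obtain ⟨g, rfl⟩ := MulAction.exists_smul_eq G P Q
      rw [← Finset.sum_filter]
      symm
      refine Finset.sum_bij (fun x _ => g * (x : G) * g⁻¹) ?_ ?_ ?_ ?_
      · intro x _
        simp only [Finset.mem_filter, Finset.mem_univ, true_and, mem_smul_iff]
        simp [mul_assoc]
      · intro x _ y _ h
        exact Subtype.ext (mul_left_cancel (mul_right_cancel h))
      · intro y hy
        simp only [Finset.mem_filter, Finset.mem_univ, true_and, mem_smul_iff] at hy
        exact ⟨⟨g⁻¹ * y * g, hy⟩, Finset.mem_univ _, by simp [mul_assoc]⟩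
      · intro x _
        rw [nu_conj]
    have h2 : ∀ g : G, ∑ Q : Sylow p G, (if g ∈ (Q : Subgroup G) then (nu p g : ℝ)⁻¹ else 0) =
        if ∃ k : ℕ, orderOf g = p ^ k then 1 else 0 := by
      intro g
      rw [Finset.sum_ite, Finset.sum_const_zero, add_zero, Finset.sum_const, nsmul_eq_mul,
        ← Fintype.card_subtype, ← Nat.card_eq_fintype_card]
      show (nu p g : ℝ) * (nu p g : ℝ)⁻¹ = _
      by_cases h : ∃ k : ℕ, orderOf g = p ^ k
      · rw [if_pos h, mul_inv_cancel₀]
        obtain ⟨Q, hQ⟩ := (hmem g).1 h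
        haveI : Nonempty {Q : Sylow p G // g ∈ (Q : Subgroup G)} := ⟨⟨Q, hQ⟩⟩
        exact_mod_cast (Nat.card_pos : 0 < nu p g).ne'
      · rw [if_neg h]
        haveI : IsEmpty {Q : Sylow p G // g ∈ (Q : Subgroup G)} := ⟨fun q => h ((hmem g).2 ⟨q.1, q.2⟩)⟩
        rw [show nu p g = 0 from Nat.card_of_isEmpty, Nat.cast_zero, zero_mul]
    calc (n : ℝ) * S = ∑ _Q : Sylow p G, S := by
          rw [Finset.sum_const, nsmul_eq_mul, Finset.card_univ, hn, Nat.card_eq_fintype_card]
      _ = ∑ Q : Sylow p G, ∑ g : G, (if g ∈ (Q : Subgroup G) then (nu p g : ℝ)⁻¹ else 0) :=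
          (Finset.sum_congr rfl fun Q _ => h1 Q).symm
      _ = ∑ g : G, (if ∃ k : ℕ, orderOf g = p ^ k then (1 : ℝ) else 0) := by
          rw [Finset.sum_comm]; exact Finset.sum_congr rfl fun g _ => h2 g
      _ = _ := by
          rw [Finset.sum_boole, Nat.card_eq_fintype_card, Fintype.card_subtype]
  have ha0 : 0 < a := Nat.card_pos
  have hcardP : (Finset.univ : Finset (P : Subgroup G)).card = a := by
    rw [Finset.card_univ, ha, Nat.card_eq_fintype_card]
  have hgm : ∏ x : (P : Subgroup G), (nu p (x : G) : ℝ)⁻¹ ≤ (S / a) ^ a := by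
    have h := Real.geom_mean_le_arith_mean (Finset.univ : Finset (P : Subgroup G)) (fun _ => (1 : ℝ))
      (fun x => (nu p (x : G) : ℝ)⁻¹) (fun _ _ => zero_le_one)
      (by rw [Finset.sum_const, nsmul_one, hcardP]; exact_mod_cast ha0)
      (fun x _ => inv_nonneg.2 (hnu x).le)
    simp only [Real.rpow_one, one_mul, Finset.sum_const, nsmul_one, hcardP] at h
    have hpos : 0 ≤ ∏ x : (P : Subgroup G), (nu p (x : G) : ℝ)⁻¹ :=
      Finset.prod_nonneg fun x _ => inv_nonneg.2 (hnu x).le
    calc _ = ((∏ x : (P : Subgroup G), (nu p (x : G) : ℝ)⁻¹) ^ ((a : ℝ)⁻¹)) ^ a :=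
          (Real.rpow_inv_natCast_pow hpos ha0.ne').symm
      _ ≤ _ := pow_le_pow_left₀ (Real.rpow_nonneg hpos _) h a
  set E : ℝ := ∏ x : (P : Subgroup G), (nu p (x : G) : ℝ) with hE
  have hEpos : 0 < E := Finset.prod_pos fun x _ => hnu x
  rw [Finset.prod_inv_distrib, ← hE, div_pow, le_div_iff₀ (by positivity)] at hgm
  have hgm' : (a : ℝ) ^ a ≤ E * S ^ a := by
    calc (a : ℝ) ^ a = E * (E⁻¹ * (a : ℝ) ^ a) := by rw [← mul_assoc, mul_inv_cancel₀ hEpos.ne', one_mul]
      _ ≤ _ := mul_le_mul_of_nonneg_left hgm hEpos.le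
  have hA' : E ^ p ≤ (n : ℝ) ^ a := by
    rw [hE]; exact_mod_cast hA
  have hS0 : 0 ≤ S := Finset.sum_nonneg fun x _ => inv_nonneg.2 (hnu x).le
  have h3 : ((a : ℝ) ^ p) ^ a ≤ ((n : ℝ) * S ^ p) ^ a := by
    calc ((a : ℝ) ^ p) ^ a = ((a : ℝ) ^ a) ^ p := by ring
      _ ≤ (E * S ^ a) ^ p := pow_le_pow_left₀ (by positivity) hgm' p
      _ = E ^ p * (S ^ p) ^ a := by ring
      _ ≤ (n : ℝ) ^ a * (S ^ p) ^ a := mul_le_mul_of_nonneg_right hA' (by positivity)
      _ = _ := by ring
  have h4 : (a : ℝ) ^ p ≤ (n : ℝ) * S ^ p := le_of_pow_le_pow_left₀ ha0.ne' (by positivity) h3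
  have h5 : ((a ^ p * n ^ (p - 1) : ℕ) : ℝ) ≤
      ((Nat.card {g : G // ∃ k : ℕ, orderOf g = p ^ k} ^ p : ℕ) : ℝ) := by
    push_cast
    rw [← hcount]
    calc (a : ℝ) ^ p * (n : ℝ) ^ (p - 1) ≤ ((n : ℝ) * S ^ p) * (n : ℝ) ^ (p - 1) :=
          mul_le_mul_of_nonneg_right h4 (by positivity)
      _ = _ := by
          rw [mul_pow, mul_comm ((n : ℝ) * S ^ p), ← mul_assoc, ← pow_succ,
            Nat.sub_add_cancel hp.out.one_le]
  exact_mod_cast h5

end CfsgLib.Subnormalizer.SylowCount
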