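import Cfsg.Agent.CoprimeAction.Invariant
import Cfsg.Agent.PCore.Lift
import Mathlib.GroupTheory.SpecificGroups.Cyclic
import Mathlib.GroupTheory.Sylow

/-! A bound for the product of the fixed-point counts of a `p`-group on a group of order prime
to `p`: `(∏ x, |C_U(x)|) ^ p ≤ |U| ^ |P| * |C_U(P)| ^ ((p - 1) * |P|)`. -/

set_option autoImplicit false

namespace CfsgLib.Subnormalizer.FixedBound

open Subgroup
open scoped IsMulCommutative

section Abelian

variable {V : Type*} [CommGroup V]

theorem pow_fixed (b : MulAut V) {v : V} (h : b v = v) (k : ℕ) : (b ^ k) v = v := by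
  induction k with
  | zero => rfl
  | succ k ih => rw [pow_succ, MulAut.mul_apply, h, ih]

theorem fixed_of_pow {p : ℕ} (hp : p.Prime) (b : MulAut V) {v : V} (hb : (b ^ p) v = v) {k : ℕ}
    (hk : k.Coprime p) (h : (b ^ k) v = v) : b v = v := by
  obtain ⟨m, -, hm⟩ := Nat.exists_mul_mod_eq_one_of_coprime hk hp.one_lt
  have h1 : (b ^ (k * m)) v = v := by rw [pow_mul]; exact pow_fixed _ h m
  rw [← Nat.div_add_mod (k * m) p, hm, pow_succ', MulAut.mul_apply, pow_mul, pow_fixed _ hb] at h1
  exact h1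

/-- The fixed subgroups of `a * b ^ i`, `i < p`, are independent when `b` of order `p` is
fixed-point-free. -/
theorem prod_fixed_le [Finite V] {p : ℕ} (hp : p.Prime) (a b : MulAut V) (hab : Commute a b)
    (W : Subgroup V) (hbp : ∀ v ∈ W, (b ^ p) v = v) (ha : ∀ v ∈ W, a v ∈ W)
    (hbW : ∀ v ∈ W, b v ∈ W) (hfree : ∀ v ∈ W, b v = v → v = 1) :
    ∏ i : Fin p, Nat.card {v : V // v ∈ W ∧ (a * b ^ (i : ℕ)) v = v} ≤ Nat.card W := by
  classical
  have hpow : ∀ (k : ℕ) (v : V), v ∈ W → (b ^ k) v ∈ W := by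
    intro k
    induction k with
    | zero => exact fun v hv => hv
    | succ k ih => intro v hv; rw [pow_succ, MulAut.mul_apply]; exact ih _ (hbW v hv)
  have key : ∀ (s : Finset (Fin p)) (v : Fin p → V), (∀ i ∈ s, v i ∈ W ∧ (a * b ^ (i : ℕ)) (v i) = v i) →
      ∏ i ∈ s, v i = 1 → ∀ i ∈ s, v i = 1 := by
    intro s
    induction s using Finset.induction with
    | empty => simp
    | @insert j s hj ih =>
      intro v hv hprod
      set e := a * b ^ (j : ℕ) with he
      have hvj := hv j (Finset.mem_insert_self j s)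
      have h2 : ∏ i ∈ s, e (v i) * (v i)⁻¹ = 1 := by
        rw [Finset.prod_mul_distrib, Finset.prod_inv_distrib, ← map_prod]
        have : ∏ i ∈ s, v i = (v j)⁻¹ := by
          rw [Finset.prod_insert hj] at hprod
          exact eq_inv_of_mul_eq_one_right hprod
        rw [this, map_inv, hvj.2, mul_inv_cancel]
      have hcomm : ∀ i : Fin p, Commute (a * b ^ (i : ℕ)) e := fun i =>
        (((Commute.refl a).mul_right (hab.pow_right _))).mul_left
          (((hab.pow_right _).symm).mul_right ((Commute.refl b).pow_pow _ _))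
      have h3 := ih (fun i => e (v i) * (v i)⁻¹) (fun i hi => by
        have hvi := hv i (Finset.mem_insert_of_mem hi)
        refine ⟨mul_mem (ha _ (hpow _ _ hvi.1)) (inv_mem hvi.1), ?_⟩
        rw [map_mul, map_inv, hvi.2]
        congr 1
        rw [← MulAut.mul_apply, (hcomm i).eq, MulAut.mul_apply, hvi.2]) h2
      have hs : ∀ i ∈ s, v i = 1 := by
        intro i hi
        have hvi := hv i (Finset.mem_insert_of_mem hi)
        refine hfree _ hvi.1 ?_
        have h4 : e (v i) = v i := mul_inv_eq_one.1 (h3 i hi)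
        have hne : (i : ℕ) ≠ j := fun h => hj (Fin.ext h ▸ hi)
        have h5 : (b ^ (j : ℕ)) (v i) = (b ^ (i : ℕ)) (v i) :=
          a.injective (show e (v i) = (a * b ^ (i : ℕ)) (v i) by rw [h4, hvi.2])
        rcases Nat.lt_or_gt_of_ne hne with hlt | hlt
        · refine fixed_of_pow hp b (hbp _ hvi.1) (k := (j : ℕ) - i) ?_ ?_
          · exact ((hp.coprime_iff_not_dvd).2 (Nat.not_dvd_of_pos_of_lt (by omega) (by omega))).symm
          · apply (b ^ (i : ℕ)).injective
            rw [← MulAut.mul_apply, ← pow_add, Nat.add_sub_cancel' hlt.le, h5]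
        · refine fixed_of_pow hp b (hbp _ hvi.1) (k := (i : ℕ) - j) ?_ ?_
          · exact ((hp.coprime_iff_not_dvd).2 (Nat.not_dvd_of_pos_of_lt (by omega) (by omega))).symm
          · apply (b ^ (j : ℕ)).injective
            rw [← MulAut.mul_apply, ← pow_add, Nat.add_sub_cancel' hlt.le, h5]
      intro i hi
      rcases Finset.mem_insert.1 hi with rfl | hi
      · rwa [Finset.prod_insert hj, Finset.prod_eq_one hs, mul_one] at hprod
      · exact hs i hi
  rw [← Nat.card_pi]
  refine Nat.card_le_card_of_injective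
    (fun v => (⟨∏ i, (v i).1, prod_mem fun i _ => (v i).2.1⟩ : W)) ?_
  intro v w h
  have h' : ∏ i, ((v i).1 * ((w i).1)⁻¹) = 1 := by
    rw [Finset.prod_mul_distrib, Finset.prod_inv_distrib, mul_inv_eq_one]
    exact congrArg Subtype.val h
  funext i
  apply Subtype.ext
  exact mul_inv_eq_one.1 (key Finset.univ (fun i => (v i).1 * ((w i).1)⁻¹) (fun i _ =>
    ⟨mul_mem (v i).2.1 (inv_mem (w i).2.1), by rw [map_mul, map_inv, (v i).2.2, (w i).2.2]⟩) h' i
      (Finset.mem_univ i))

variable {A : Type*} [Group A] [Fintype A] (π : A →* MulAut V)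

/-- The abelian case. -/
theorem abelian [Finite V] {p : ℕ} [hp : Fact p.Prime] (hA : IsPGroup p A)
    (hV : (Nat.card V).Coprime p) (W : Subgroup V) (hW : ∀ x, ∀ v ∈ W, π x v ∈ W) :
    (∏ x : A, Nat.card {v : V // v ∈ W ∧ π x v = v}) ^ p ≤
      Nat.card W ^ Fintype.card A *
        Nat.card {v : V // v ∈ W ∧ ∀ x, π x v = v} ^ ((p - 1) * Fintype.card A) := by
  classical
  induction hn : Nat.card W using Nat.strong_induction_on generalizing W with
  | _ n ih =>
    subst hn
    by_cases htriv : ∀ x, ∀ v ∈ W, π x v = v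
    · have h1 : ∀ x, Nat.card {v : V // v ∈ W ∧ π x v = v} = Nat.card W := fun x =>
        Nat.card_congr (Equiv.subtypeEquivRight fun v => ⟨fun h => h.1, fun h => ⟨h, htriv x v h⟩⟩)
      have h2 : Nat.card {v : V // v ∈ W ∧ ∀ x, π x v = v} = Nat.card W :=
        Nat.card_congr (Equiv.subtypeEquivRight fun v => ⟨fun h => h.1, fun h => ⟨h, fun x => htriv x v h⟩⟩)
      rw [Finset.prod_congr rfl fun x _ => h1 x, h2, Finset.prod_const, Finset.card_univ, ← pow_mul,
        ← pow_add]
      refine le_of_eq ?_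
      congr 1
      obtain ⟨m, hm⟩ : ∃ m, p = m + 1 := ⟨p - 1, by have := hp.out.two_le; omega⟩
      rw [hm, Nat.add_sub_cancel]; ring
    set K : Subgroup A :=
      { carrier := {x | ∀ v ∈ W, π x v = v}
        one_mem' := fun v _ => by simp
        mul_mem' := fun {x y} hx hy v hv => by rw [map_mul, MulAut.mul_apply, hy v hv, hx v hv]
        inv_mem' := fun {x} hx v hv => by
          apply (π x).injective
          rw [hx v hv, ← MulAut.mul_apply, ← map_mul, mul_inv_cancel, map_one, MulAut.one_apply] }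
    haveI hKn : K.Normal := ⟨fun x hx y v hv => by
      rw [map_mul, map_mul, MulAut.mul_apply, MulAut.mul_apply, hx _ (hW _ v hv), ← MulAut.mul_apply,
        ← map_mul, mul_inv_cancel, map_one, MulAut.one_apply]⟩
    have hKne : K ≠ ⊤ := fun h => htriv fun x v hv => (h ▸ mem_top x : x ∈ K) v hv
    haveI : Nontrivial (A ⧸ K) := QuotientGroup.nontrivial_iff.2 hKne
    haveI := (hA.to_quotient K).center_nontrivial
    obtain ⟨j, hj⟩ := IsPGroup.iff_card.1 ((hA.to_quotient K).to_subgroup (center (A ⧸ K)))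
    have hj0 : j ≠ 0 := by
      rintro rfl
      simp only [pow_zero] at hj
      exact (Finite.one_lt_card (α := center (A ⧸ K))).ne' hj
    obtain ⟨zb, hzb⟩ := exists_prime_orderOf_dvd_card' p
      (show p ∣ Nat.card (center (A ⧸ K)) from hj ▸ dvd_pow_self p hj0)
    obtain ⟨z, hz⟩ := QuotientGroup.mk'_surjective K (zb : A ⧸ K)
    have hact : ∀ x y : A, (QuotientGroup.mk' K x = QuotientGroup.mk' K y) → ∀ v ∈ W, π x v = π y v := by
      intro x y h v hv
      have h1 : y⁻¹ * x ∈ K := QuotientGroup.eq.1 h.symm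
      have := h1 v hv
      rw [map_mul, MulAut.mul_apply] at this
      apply (π y⁻¹).injective
      rw [this, ← MulAut.mul_apply, ← map_mul, inv_mul_cancel, map_one, MulAut.one_apply]
    have hzc : ∀ x : A, ∀ v ∈ W, π x (π z v) = π z (π x v) := by
      intro x v hv
      rw [← MulAut.mul_apply, ← MulAut.mul_apply, ← map_mul, ← map_mul]
      refine hact _ _ ?_ v hv
      rw [map_mul, map_mul, hz]
      exact mem_center_iff.1 zb.2 _
    have hzp : ∀ v ∈ W, (π z ^ p) v = v := by
      intro v hv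
      have : z ^ p ∈ K := by
        rw [← QuotientGroup.eq_one_iff, ← QuotientGroup.mk'_apply, map_pow, hz, ← hzb, ← Subgroup.coe_pow,
          pow_orderOf_eq_one, OneMemClass.coe_one]
      rw [← map_pow]; exact this v hv
    let φ : W →* V :=
      { toFun := fun v => π z v * (v : V)⁻¹
        map_one' := by simp
        map_mul' := fun v w => by simp only [Subgroup.coe_mul, map_mul, mul_inv]; ac_rfl }
    set W1 := φ.range with hW1
    let W0 : Subgroup V :=
      { carrier := {v | v ∈ W ∧ π z v = v}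
        one_mem' := ⟨one_mem _, map_one _⟩
        mul_mem' := fun {a b} ha hb => ⟨mul_mem ha.1 hb.1, by rw [map_mul, ha.2, hb.2]⟩
        inv_mem' := fun {a} ha => ⟨inv_mem ha.1, by rw [map_inv, ha.2]⟩ }
    have hW1W : W1 ≤ W := by
      rintro _ ⟨v, rfl⟩
      exact mul_mem (hW z v v.2) (inv_mem v.2)
    have hdisj : ∀ v ∈ W1, π z v = v → v = 1 := by
      rintro _ ⟨u, rfl⟩ h
      set v := φ u with hv
      have h1 : ∀ i : ℕ, (π z ^ i) (u : V) = v ^ i * u := by
        intro i
        induction i with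
        | zero => simp
        | succ i ihi =>
          rw [pow_succ', MulAut.mul_apply, ihi, map_mul, map_pow, h, pow_succ, mul_assoc]
          congr 1
          show π z u = π z u * (u : V)⁻¹ * u
          rw [inv_mul_cancel_right]
      have h2 : v ^ p = 1 := mul_eq_right.1 ((h1 p).symm.trans (hzp u u.2))
      have h3 : orderOf v ∣ 1 := hV ▸ Nat.dvd_gcd (orderOf_dvd_natCard v) (orderOf_dvd_of_pow_eq_one h2)
      exact orderOf_eq_one_iff.1 (Nat.dvd_one.1 h3)
    have hW0inv : ∀ x, ∀ v ∈ W0, π x v ∈ W0 := fun x v hv =>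
      ⟨hW x v hv.1, by rw [← hzc x v hv.1, hv.2]⟩
    have hW1inv : ∀ x, ∀ v ∈ W1, π x v ∈ W1 := by
      rintro x _ ⟨u, rfl⟩
      refine ⟨⟨π x u, hW x u u.2⟩, ?_⟩
      show π z (π x u) * (π x (u : V))⁻¹ = π x (π z u * (u : V)⁻¹)
      rw [map_mul, map_inv, hzc x u u.2]
    have hcard : Nat.card W0 * Nat.card W1 = Nat.card W := by
      rw [Subgroup.card_eq_card_quotient_mul_card_subgroup φ.ker,
        Nat.card_congr (QuotientGroup.quotientKerEquivRange φ).toEquiv, mul_comm]
      congr 1
      refine (Nat.card_congr ?_).symm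
      exact {
        toFun := fun u => ⟨(u.1 : V), u.1.2, mul_inv_eq_one.1 u.2⟩
        invFun := fun u => ⟨⟨u.1, u.2.1⟩, mul_inv_eq_one.2 u.2.2⟩
        left_inv := fun _ => rfl
        right_inv := fun _ => rfl }
    let ψ : W0 × W1 → W := fun q => ⟨q.1.1 * q.2.1, mul_mem q.1.2.1 (hW1W q.2.2)⟩
    have hψ : Function.Injective ψ := by
      rintro ⟨a, c⟩ ⟨a', c'⟩ h
      have h' : (a : V) * c = a' * c' := congrArg Subtype.val h
      have e : (a' : V)⁻¹ * a = c' * (c : V)⁻¹ := by
        calc (a' : V)⁻¹ * a = (a' : V)⁻¹ * (a * c) * (c : V)⁻¹ := by group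
          _ = c' * (c : V)⁻¹ := by rw [h']; group
      have hm : (a' : V)⁻¹ * a ∈ W0 := mul_mem (inv_mem a'.2) a.2
      have h0 := hdisj _ (mul_mem c'.2 (inv_mem c.2)) (e ▸ hm.2)
      have hc : (c' : V) = c := mul_inv_eq_one.1 h0
      rw [h0] at e
      exact Prod.ext (Subtype.ext (inv_mul_eq_one.1 e).symm) (Subtype.ext hc.symm)
    have hψs : Function.Bijective ψ :=
      hψ.bijective_of_nat_card_le (by rw [Nat.card_prod, hcard])
    have hsplit : ∀ x, Nat.card {v : V // v ∈ W ∧ π x v = v} ≤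
        Nat.card {v : V // v ∈ W0 ∧ π x v = v} * Nat.card {v : V // v ∈ W1 ∧ π x v = v} := by
      intro x
      rw [← Nat.card_prod]
      refine Nat.card_le_card_of_surjective
        (fun q => ⟨q.1.1 * q.2.1, mul_mem q.1.2.1.1 (hW1W q.2.2.1), by
          rw [map_mul, q.1.2.2, q.2.2.2]⟩) ?_
      rintro ⟨v, hvW, hv⟩
      obtain ⟨⟨a, c⟩, hac⟩ := hψs.2 ⟨v, hvW⟩
      have hac' : (a : V) * c = v := congrArg Subtype.val hac
      have := @hψ ⟨⟨_, hW0inv x a a.2⟩, ⟨_, hW1inv x c c.2⟩⟩ ⟨a, c⟩ (Subtype.ext (by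
        show π x a * π x c = (a : V) * c
        rw [← map_mul, hac', hv]))
      exact ⟨⟨⟨a, a.2, congrArg (fun q => (q.1 : V)) this⟩, ⟨c, c.2, congrArg (fun q => (q.2 : V)) this⟩⟩,
        Subtype.ext hac'⟩
    have hlt : Nat.card W0 < Nat.card W := by
      refine lt_of_le_of_ne (card_le_of_le fun v hv => hv.1) fun h => ?_
      have heq : W0 = W := eq_of_le_of_card_ge (fun v hv => hv.1) h.ge
      have hzK : z ∈ K := fun v hv => (show v ∈ W0 from heq.symm ▸ hv).2
      rw [← QuotientGroup.eq_one_iff, ← QuotientGroup.mk'_apply, hz] at hzK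
      rw [show zb = 1 from Subtype.ext hzK, orderOf_one] at hzb
      exact hp.out.ne_one hzb.symm
    have h0 := ih _ hlt W0 hW0inv rfl
    have hc0 : Nat.card {v : V // v ∈ W0 ∧ ∀ x, π x v = v} ≤ Nat.card {v : V // v ∈ W ∧ ∀ x, π x v = v} :=
      Nat.card_le_card_of_injective (fun v => ⟨v.1, v.2.1.1, v.2.2⟩)
        fun a b h => Subtype.ext (by simpa [Subtype.ext_iff] using h)
    have h1 : (∏ x : A, Nat.card {v : V // v ∈ W1 ∧ π x v = v}) ^ p ≤ Nat.card W1 ^ Fintype.card A := by
      have hi : ∀ i : Fin p, ∏ x : A, Nat.card {v : V // v ∈ W1 ∧ π (x * z ^ (i : ℕ)) v = v} =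
          ∏ x : A, Nat.card {v : V // v ∈ W1 ∧ π x v = v} := fun i =>
        Fintype.prod_equiv (Equiv.mulRight (z ^ (i : ℕ))) _ _ fun x => rfl
      have : (∏ x : A, Nat.card {v : V // v ∈ W1 ∧ π x v = v}) ^ p =
          ∏ x : A, ∏ i : Fin p, Nat.card {v : V // v ∈ W1 ∧ π (x * z ^ (i : ℕ)) v = v} := by
        rw [Finset.prod_comm, Finset.prod_congr rfl fun i _ => hi i, Finset.prod_const,
          Finset.card_univ, Fintype.card_fin]
      rw [this, show Nat.card W1 ^ Fintype.card A = ∏ _x : A, Nat.card W1 by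
        rw [Finset.prod_const, Finset.card_univ]]
      refine Finset.prod_le_prod' fun x _ => ?_
      have hres : ∀ (y : A), ∃ f : MulAut W1, ∀ v : W1, (f v : V) = π y v := fun y =>
        ⟨{ toFun := fun v => ⟨π y v, hW1inv y v v.2⟩
           invFun := fun v => ⟨π y⁻¹ v, hW1inv y⁻¹ v v.2⟩
           left_inv := fun v => Subtype.ext (show π y⁻¹ (π y v) = v by rw [← MulAut.mul_apply, ← map_mul, inv_mul_cancel, map_one, MulAut.one_apply])
           right_inv := fun v => Subtype.ext (show π y (π y⁻¹ v) = v by rw [← MulAut.mul_apply, ← map_mul, mul_inv_cancel, map_one, MulAut.one_apply])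
           map_mul' := fun v w => Subtype.ext (map_mul (π y) _ _) }, fun v => rfl⟩
      obtain ⟨fa, hfa⟩ := hres x
      obtain ⟨fb, hfb⟩ := hres z
      have hfab : Commute fa fb := MulEquiv.ext fun v => Subtype.ext (by
        rw [MulAut.mul_apply, MulAut.mul_apply, hfa, hfb, hfb, hfa, hzc x v (hW1W v.2)])
      have hfpow : ∀ (k : ℕ) (v : W1), ((fb ^ k) v : V) = (π z ^ k) v := by
        intro k
        induction k with
        | zero => intro v; rfl
        | succ k ihk => intro v; rw [pow_succ', MulAut.mul_apply, hfb, ihk, pow_succ', MulAut.mul_apply]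
      have := prod_fixed_le hp.out fa fb hfab ⊤
        (fun v _ => Subtype.ext (by rw [hfpow, hzp v (hW1W v.2)]))
        (fun _ _ => mem_top _) (fun _ _ => mem_top _)
        (fun v _ hv => Subtype.ext (hdisj v v.2 (by rw [← hfb, hv])))
      rw [card_top] at this
      refine le_trans (le_of_eq (Finset.prod_congr rfl fun i _ => Nat.card_congr ?_)) this
      have e : ∀ u : V, π (x * z ^ (i : ℕ)) u = π x ((π z ^ (i : ℕ)) u) := fun u => by
        rw [map_mul, map_pow, MulAut.mul_apply]
      exact {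
        toFun := fun v => ⟨⟨v.1, v.2.1⟩, mem_top _, Subtype.ext (by
          rw [MulAut.mul_apply, hfa, hfpow]
          exact (e _).symm.trans v.2.2)⟩
        invFun := fun v => ⟨v.1.1, v.1.2, by
          have := congrArg Subtype.val v.2.2
          rw [MulAut.mul_apply, hfa, hfpow] at this
          exact (e _).trans this⟩
        left_inv := fun _ => rfl
        right_inv := fun _ => rfl }
    calc (∏ x : A, Nat.card {v : V // v ∈ W ∧ π x v = v}) ^ p
        ≤ (∏ x : A, Nat.card {v : V // v ∈ W0 ∧ π x v = v} * Nat.card {v : V // v ∈ W1 ∧ π x v = v}) ^ p :=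
          Nat.pow_le_pow_left (Finset.prod_le_prod' fun x _ => hsplit x) p
      _ ≤ (Nat.card W0 ^ Fintype.card A *
            Nat.card {v : V // v ∈ W ∧ ∀ x, π x v = v} ^ ((p - 1) * Fintype.card A)) *
          Nat.card W1 ^ Fintype.card A := by
          rw [Finset.prod_mul_distrib, mul_pow]
          exact Nat.mul_le_mul (h0.trans (Nat.mul_le_mul_left _ (Nat.pow_le_pow_left hc0 _))) h1
      _ = _ := by rw [← hcard, mul_pow]; ring

end Abelian

variable {G : Type*} [Group G]

/-- The bound for the subgroup `U` under the action of `P`. -/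
def Bnd (p : ℕ) (U P : Subgroup G) : Prop :=
  (∏ᶠ x : P, Nat.card ↥(U ⊓ centralizer (zpowers (x : G) : Set G))) ^ p ≤
    Nat.card U ^ Nat.card P * Nat.card ↥(U ⊓ centralizer (P : Set G)) ^ ((p - 1) * Nat.card P)

theorem mem_centralizer_zpowers_iff {x u : G} :
    u ∈ centralizer (zpowers x : Set G) ↔ x * u = u * x := by
  rw [zpowers_eq_closure, centralizer_closure, mem_centralizer_iff]
  simp

theorem card_map_mul_card_ker {G' : Type*} [Group G'] (f : G →* G') (L : Subgroup G) :
    Nat.card (L.map f) * Nat.card ↥(f.ker ⊓ L) = Nat.card L := by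
  rw [← relIndex_bot_left L, ← relIndex_mul_relIndex ⊥ (f.ker ⊓ L) L bot_le inf_le_right,
    relIndex_bot_left, inf_relIndex_right, relIndex_ker, mul_comm]

theorem bnd_of_comm [Finite G] {p : ℕ} [Fact p.Prime] {U P : Subgroup G} [IsMulCommutative U]
    (hP : IsPGroup p P) (hPU : P ≤ normalizer (U : Set G)) (hU : (Nat.card U).Coprime p) :
    Bnd p U P := by
  classical
  haveI : Fintype P := Fintype.ofFinite P
  let π : P →* MulAut U := U.normalizerMonoidHom.comp (inclusion hPU)
  have hπ : ∀ (x : P) (v : U), (π x v : G) = x * v * (x : G)⁻¹ := fun _ _ => rfl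
  have h := abelian π hP hU ⊤ (fun _ _ _ => mem_top _)
  have hfix : ∀ (x : P) (v : U), π x v = v ↔ (x : G) * v = v * x := fun x v => by
    rw [← Subtype.coe_inj, hπ, mul_inv_eq_iff_eq_mul]
  rw [card_top, ← Nat.card_eq_fintype_card (α := P)] at h
  rw [Bnd, finprod_eq_prod_of_fintype]
  convert h using 3
  · rename_i x _
    exact Nat.card_congr {
      toFun := fun v => ⟨⟨v.1, (mem_inf.1 v.2).1⟩, mem_top _,
        (hfix x _).2 (mem_centralizer_zpowers_iff.1 (mem_inf.1 v.2).2)⟩
      invFun := fun v => ⟨v.1.1, mem_inf.2 ⟨v.1.2, mem_centralizer_zpowers_iff.2 ((hfix x _).1 v.2.2)⟩⟩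
      left_inv := fun _ => rfl
      right_inv := fun _ => rfl }
  · exact Nat.card_congr {
      toFun := fun v => ⟨⟨v.1, (mem_inf.1 v.2).1⟩, mem_top _, fun x =>
        (hfix x _).2 (mem_centralizer_iff.1 (mem_inf.1 v.2).2 x x.2)⟩
      invFun := fun v => ⟨v.1.1, mem_inf.2 ⟨v.1.2, mem_centralizer_iff.2 fun x hx =>
        (hfix ⟨x, hx⟩ _).1 (v.2.2 ⟨x, hx⟩)⟩⟩
      left_inv := fun _ => rfl
      right_inv := fun _ => rfl }

/-- Fixed points in an invariant Sylow subgroup form a Sylow subgroup of the fixed points. -/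
theorem card_sylow_inf_centralizer [Finite G] {U A : Subgroup G} {q : ℕ} [hq : Fact q.Prime]
    (hAU : A ≤ normalizer (U : Set G)) (hcop : (Nat.card A).Coprime (Nat.card U))
    (hsol : Group.IsSolvable A) (Q : Sylow q U)
    (hQ : A ≤ normalizer ((Q : Subgroup U).map U.subtype : Set G)) :
    Nat.card ↥((Q : Subgroup U).map U.subtype ⊓ centralizer (A : Set G)) =
      q ^ (Nat.card ↥(U ⊓ centralizer (A : Set G))).factorization q := by
  set C := U ⊓ centralizer (A : Set G)
  set Q' := (Q : Subgroup U).map U.subtype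
  obtain ⟨R⟩ : Nonempty (Sylow q C) := inferInstance
  have hAR : A ≤ normalizer ((R : Subgroup C).map C.subtype : Set G) := by
    refine le_trans ?_ (centralizer_le_normalizer _)
    intro a ha
    refine mem_centralizer_iff.2 fun y hy => ?_
    exact (mem_centralizer_iff.1 (mem_inf.1 (map_subtype_le _ hy)).2 a ha).symm
  obtain ⟨S, hRS, hS⟩ := CoprimeAction.exists_invariant_sylow_ge hAU hcop (Or.inl hsol)
    ((map_subtype_le _).trans inf_le_left) (R.isPGroup'.map C.subtype) hAR
  obtain ⟨c, hc, hcS⟩ := CoprimeAction.invariant_sylow_conj hAU hcop (Or.inl hsol) S Q hS hQ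
  obtain ⟨m, hm⟩ := IsPGroup.iff_card.1
    ((Q.isPGroup'.map U.subtype).to_le (inf_le_left : Q' ⊓ centralizer (A : Set G) ≤ Q'))
  rw [hm]
  congr 1
  refine le_antisymm ((Nat.Prime.pow_dvd_iff_le_factorization hq.out Nat.card_pos.ne').1 ?_) ?_
  · rw [← hm]; exact card_dvd_of_le (inf_le_inf_right _ (map_subtype_le _))
  · refine (Nat.pow_le_pow_iff_right hq.out.one_lt).1 ?_
    rw [← hm, ← CoprimeAction.card_sylow_map R]
    refine Nat.card_le_card_of_injective (fun r => ⟨(c : G) * r.1 * (c : G)⁻¹, mem_inf.2 ⟨?_, ?_⟩⟩) ?_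
    · show _ ∈ (Q : Subgroup U).map U.subtype
      rw [← hcS, CoprimeAction.sylow_map_conj]
      exact smul_mem_pointwise_smul _ (MulAut.conj (c : G)) _ (hRS r.2)
    · have hr := (mem_inf.1 (map_subtype_le _ r.2)).2
      exact mul_mem (mul_mem hc hr) (inv_mem hc)
    · intro r s h
      exact Subtype.ext (mul_left_cancel (mul_right_cancel (congrArg Subtype.val h)))

theorem eq_prod_pow {m M : ℕ} (hM : M ≠ 0) (h : m ∣ M) :
    m = ∏ q ∈ M.primeFactors, q ^ m.factorization q := by
  have hm : m ≠ 0 := fun h0 => hM (Nat.eq_zero_of_zero_dvd (h0 ▸ h))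
  conv_lhs => rw [← Nat.prod_factorization_pow_eq_self hm]
  rw [Finsupp.prod]
  refine Finset.prod_subset ?_ fun q _ hq => by rw [Finsupp.notMem_support_iff.1 hq, pow_zero]
  rw [Nat.support_factorization]
  exact Nat.primeFactors_mono h hM

/-- Reduction to invariant Sylow subgroups. -/
theorem bnd_of_sylow [Finite G] {p : ℕ} [hp : Fact p.Prime] {U P : Subgroup G} (hP : IsPGroup p P)
    (hPU : P ≤ normalizer (U : Set G)) (hU : (Nat.card U).Coprime p)
    (h : ∀ (q : ℕ) [Fact q.Prime] (Q : Sylow q U),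
      P ≤ normalizer ((Q : Subgroup U).map U.subtype : Set G) → Bnd p ((Q : Subgroup U).map U.subtype) P) :
    Bnd p U P := by
  classical
  haveI : Fintype P := Fintype.ofFinite P
  obtain ⟨k, hk⟩ := IsPGroup.iff_card.1 hP
  have hcop : (Nat.card P).Coprime (Nat.card U) := hk ▸ Nat.Coprime.pow_left k hU.symm
  haveI := hP.isNilpotent
  have hsol : Group.IsSolvable P := inferInstance
  have key : ∀ q ∈ (Nat.card U).primeFactors,
      (∏ x : P, q ^ (Nat.card ↥(U ⊓ centralizer (zpowers (x : G) : Set G))).factorization q) ^ p ≤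
        (q ^ (Nat.card U).factorization q) ^ Nat.card P *
          (q ^ (Nat.card ↥(U ⊓ centralizer (P : Set G))).factorization q) ^ ((p - 1) * Nat.card P) := by
    intro q hq
    haveI : Fact q.Prime := ⟨Nat.prime_of_mem_primeFactors hq⟩
    obtain ⟨Q, hQ⟩ := CoprimeAction.exists_invariant_sylow hPU hcop (Or.inl hsol) q
    have := h q Q hQ
    rw [Bnd, finprod_eq_prod_of_fintype] at this
    rw [CoprimeAction.card_sylow_map Q, card_sylow_inf_centralizer hPU hcop hsol Q hQ] at this
    refine le_trans (le_of_eq ?_) this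
    congr 1
    refine Finset.prod_congr rfl fun x _ => ?_
    have hx : zpowers (x : G) ≤ P := zpowers_le.2 x.2
    haveI : Group.IsSolvable ↥(zpowers (x : G)) :=
      Group.isSolvable_of_isSolvable_injective (inclusion_injective hx)
    exact (card_sylow_inf_centralizer (hx.trans hPU) (hcop.coprime_dvd_left (card_dvd_of_le hx))
      inferInstance Q (hx.trans hQ)).symm
  have hM : Nat.card U ≠ 0 := Nat.card_pos.ne'
  rw [Bnd, finprod_eq_prod_of_fintype]
  rw [Finset.prod_congr rfl fun (x : P) _ => eq_prod_pow hM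
      (card_dvd_of_le (inf_le_left : U ⊓ centralizer (zpowers (x : G) : Set G) ≤ U)),
    Finset.prod_comm, ← Finset.prod_pow]
  refine le_trans (Finset.prod_le_prod' key) (le_of_eq ?_)
  rw [Finset.prod_mul_distrib, Finset.prod_pow, Finset.prod_pow, ← eq_prod_pow hM dvd_rfl,
    ← eq_prod_pow hM (card_dvd_of_le inf_le_left)]

/-- Passing to a subgroup containing both. -/
theorem bnd_subgroupOf [Finite G] {p : ℕ} {U P H : Subgroup G} (hU : U ≤ H) (hP : P ≤ H) :
    Bnd p (U.subgroupOf H) (P.subgroupOf H) ↔ Bnd p U P := by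
  have hc : ∀ L : Subgroup G, L ≤ H → Nat.card (L.subgroupOf H) = Nat.card L := fun L hL =>
    Nat.card_congr (subgroupOfEquivOfLe hL).toEquiv
  have hC : ∀ L : Subgroup G, L ≤ H →
      U.subgroupOf H ⊓ centralizer ((L.subgroupOf H : Subgroup H) : Set H) =
        (U ⊓ centralizer (L : Set G)).subgroupOf H := by
    intro L hL
    ext y
    simp only [mem_inf, mem_subgroupOf, mem_centralizer_iff, SetLike.mem_coe]
    refine and_congr_right fun _ => ⟨fun h x hx => congrArg Subtype.val (h ⟨x, hL hx⟩ hx),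
      fun h x hx => Subtype.ext (h x hx)⟩
  unfold Bnd
  rw [hc U hU, hc P hP, hC P hP, hc _ (inf_le_left.trans hU)]
  rw [finprod_eq_of_bijective (g := fun x : P => Nat.card ↥(U ⊓ centralizer (zpowers (x : G) : Set G)))
    (subgroupOfEquivOfLe hP) (subgroupOfEquivOfLe hP).bijective fun x => ?_]
  have : (zpowers (x : H)) = (zpowers ((x : H) : G)).subgroupOf H := by
    refine map_injective H.subtype_injective ?_
    rw [MonoidHom.map_zpowers, map_subgroupOf_eq_of_le (zpowers_le.2 (x : H).2), coe_subtype]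
  rw [this, hC _ (zpowers_le.2 (x : H).2), hc _ (inf_le_left.trans hU)]
  rfl

/-- The inductive step through a normal invariant subgroup. -/
theorem bnd_of_quotient [Finite G] {p : ℕ} [hp : Fact p.Prime] {U P W : Subgroup G} [W.Normal]
    (hWU : W ≤ U) (hP : IsPGroup p P) (hU : (Nat.card U).Coprime p) (h1 : Bnd p W P)
    (h2 : Bnd p (U.map (QuotientGroup.mk' W)) (P.map (QuotientGroup.mk' W))) : Bnd p U P := by
  classical
  haveI : Fintype P := Fintype.ofFinite P
  set f := QuotientGroup.mk' W with hf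
  have hker : f.ker = W := QuotientGroup.ker_mk' W
  have hW : (Nat.card W).Coprime p := hU.coprime_dvd_left (card_dvd_of_le hWU)
  have hinj : Function.Bijective (f.subgroupMap P) := by
    refine ⟨fun a b h => Subtype.ext ?_, f.subgroupMap_surjective P⟩
    have h' : f a = f b := congrArg Subtype.val h
    have : (a : G)⁻¹ * b ∈ P ⊓ W := mem_inf.2 ⟨mul_mem (inv_mem a.2) b.2, QuotientGroup.eq.1 h'⟩
    rw [PCore.inf_eq_bot_of_isPGroup_of_coprime hP hW, mem_bot] at this
    exact inv_mul_eq_one.1 this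
  have hPc : Nat.card (P.map f) = Nat.card P := (Nat.card_eq_of_bijective _ hinj).symm
  unfold Bnd at h1 h2 ⊢
  rw [← finprod_eq_of_bijective (f := fun x : P =>
      Nat.card ↥(U.map f ⊓ centralizer (zpowers (f x) : Set (G ⧸ W)))) _ hinj (fun x => rfl),
    finprod_eq_prod_of_fintype, hPc] at h2
  rw [finprod_eq_prod_of_fintype] at h1 ⊢
  have hUc : Nat.card W * Nat.card (U.map f) = Nat.card U := by
    rw [mul_comm]
    have := card_map_mul_card_ker f U
    rwa [hker, inf_eq_left.2 hWU] at this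
  have hCc : Nat.card ↥(W ⊓ centralizer (P : Set G)) *
      Nat.card ↥(U.map f ⊓ centralizer (P.map f : Set (G ⧸ W))) =
        Nat.card ↥(U ⊓ centralizer (P : Set G)) := by
    rw [PCore.centralizer_map_eq W hW P hP,
      show U.map f ⊓ (centralizer (P : Set G)).map f = (U ⊓ centralizer (P : Set G)).map f by
        refine le_antisymm ?_ (le_inf (map_mono inf_le_left) (map_mono inf_le_right))
        rintro _ ⟨⟨u, hu, rfl⟩, c, hc, he⟩
        refine ⟨c, ⟨?_, hc⟩, he⟩
        have hm : c⁻¹ * u ∈ W := QuotientGroup.eq.1 he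
        have := mul_mem hu (inv_mem (hWU hm))
        simpa using this,
      mul_comm]
    have := card_map_mul_card_ker f (U ⊓ centralizer (P : Set G))
    rwa [hker, ← inf_assoc, inf_eq_left.2 hWU] at this
  have hx : ∀ x : P, Nat.card ↥(U ⊓ centralizer (zpowers (x : G) : Set G)) ≤
      Nat.card ↥(W ⊓ centralizer (zpowers (x : G) : Set G)) *
        Nat.card ↥(U.map f ⊓ centralizer (zpowers (f x) : Set (G ⧸ W))) := by
    intro x
    rw [← card_map_mul_card_ker f, hker, ← inf_assoc, inf_eq_left.2 hWU, mul_comm]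
    refine Nat.mul_le_mul_left _ (card_le_of_le ?_)
    rintro _ ⟨u, hu, rfl⟩
    refine mem_inf.2 ⟨mem_map_of_mem f (mem_inf.1 hu).1, mem_centralizer_zpowers_iff.2 ?_⟩
    rw [← map_mul, ← map_mul, mem_centralizer_zpowers_iff.1 (mem_inf.1 hu).2]
  calc _ ≤ (∏ x : P, Nat.card ↥(W ⊓ centralizer (zpowers (x : G) : Set G)) *
        Nat.card ↥(U.map f ⊓ centralizer (zpowers (f x) : Set (G ⧸ W)))) ^ p :=
        Nat.pow_le_pow_left (Finset.prod_le_prod' fun x _ => hx x) p
    _ ≤ _ := by
        rw [Finset.prod_mul_distrib, mul_pow, ← hUc, ← hCc, mul_pow, mul_pow]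
        calc _ ≤ _ := Nat.mul_le_mul h1 h2
          _ = _ := by ring

theorem bnd_of_qgroup {p : ℕ} [hp : Fact p.Prime] : ∀ (n : ℕ) {G : Type*} [Group G] [Finite G]
    (U P : Subgroup G) (q : ℕ) [Fact q.Prime], IsPGroup q U → Nat.card U = n → IsPGroup p P →
    P ≤ normalizer (U : Set G) → (Nat.card U).Coprime p → Bnd p U P := by
  intro n
  induction n using Nat.strong_induction_on with
  | _ n ih =>
    intro G _ _ U P q _ hUq hn hP hPU hU
    by_cases hcomm : IsMulCommutative U
    · exact bnd_of_comm hP hPU hU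
    set H := normalizer (U : Set G) with hH
    rw [← bnd_subgroupOf (H := H) le_normalizer hPU]
    set U' := U.subgroupOf H
    set P' := P.subgroupOf H
    haveI : U'.Normal := normal_subgroupOf_of_le_normalizer le_rfl
    have hU'q : IsPGroup q U' := hUq.comap_subtype
    have hU'c : Nat.card U' = n := (Nat.card_congr (subgroupOfEquivOfLe le_normalizer).toEquiv).trans hn
    have hP' : IsPGroup p P' := hP.comap_subtype
    have hU' : (Nat.card U').Coprime p := by rw [hU'c, ← hn]; exact hU
    have hcomm' : ¬ IsMulCommutative U' := fun h => hcomm ⟨⟨fun a b => by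
      have := h.1.1 ⟨⟨a.1, le_normalizer a.2⟩, a.2⟩ ⟨⟨b.1, le_normalizer b.2⟩, b.2⟩
      exact Subtype.ext (congrArg (fun v : U' => ((v : H) : G)) this)⟩⟩
    haveI : Nontrivial U' := not_subsingleton_iff_nontrivial.1 fun h => hcomm' ⟨⟨fun a b => Subsingleton.elim _ _⟩⟩
    haveI := hU'q.center_nontrivial
    set W := (center U').map U'.subtype
    haveI : W.Normal := inferInstance
    have hWU : W ≤ U' := map_subtype_le _
    haveI : IsMulCommutative W := inferInstance
    have h1 : Bnd p W P' := bnd_of_comm hP' (by rw [normalizer_eq_top]; exact le_top)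
      (hU'.coprime_dvd_left (card_dvd_of_le hWU))
    refine bnd_of_quotient hWU hP' hU' h1 ?_
    have hWc : 1 < Nat.card W := by
      rw [card_map_of_injective Subtype.val_injective]; exact Finite.one_lt_card
    have hUc : Nat.card W * Nat.card (U'.map (QuotientGroup.mk' W)) = n := by
      rw [mul_comm, ← hU'c]
      have := card_map_mul_card_ker (QuotientGroup.mk' W) U'
      rwa [QuotientGroup.ker_mk', inf_eq_left.2 hWU] at this
    refine ih _ ?_ _ _ q (hU'q.map _) rfl (hP'.map _) ?_ ?_
    · rw [← hUc]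
      exact lt_mul_left Nat.card_pos hWc
    · haveI : (U'.map (QuotientGroup.mk' W)).Normal :=
        Subgroup.Normal.map inferInstance _ (QuotientGroup.mk'_surjective W)
      rw [normalizer_eq_top]; exact le_top
    · exact hU'.coprime_dvd_left (card_map_dvd _ _)

/-- **The bound.** -/
theorem bnd [Finite G] {p : ℕ} [hp : Fact p.Prime] {U P : Subgroup G} (hP : IsPGroup p P)
    (hPU : P ≤ normalizer (U : Set G)) (hU : (Nat.card U).Coprime p) : Bnd p U P :=
  bnd_of_sylow hP hPU hU fun q _ Q hQ =>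
    bnd_of_qgroup _ _ _ q (Q.isPGroup'.map _) rfl hP hQ
      (hU.coprime_dvd_left (card_dvd_of_le (map_subtype_le _)))

end CfsgLib.Subnormalizer.FixedBound
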